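import Mathlib
import Cfsg.Agent.H1.WielandtHall

set_option autoImplicit false

namespace Cfsg.H1

open Subgroup

variable {G : Type*} [Group G]

/-- centralizer of an element -/
abbrev cz (x : G) : Subgroup G := centralizer ({x} : Set G)

/-- two class sizes `1` and `n` -/
def TwoCS (G : Type*) [Group G] (n : ℕ) : Prop :=
  1 < n ∧ ∀ x : G, (cz x).index = 1 ∨ (cz x).index = n

/-- a prime with a noncentral element of prime power order -/
def IsBad (G : Type*) [Group G] (r : ℕ) : Prop :=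
  r.Prime ∧ ∃ y : G, y ∉ center G ∧ ∃ j : ℕ, orderOf y = r ^ j

theorem mem_cz {x g : G} : g ∈ cz x ↔ g * x = x * g := mem_centralizer_singleton_iff

theorem self_mem_cz (x : G) : x ∈ cz x := mem_cz.2 rfl

theorem cz_index_one_iff {x : G} : (cz x).index = 1 ↔ x ∈ center G := by
  rw [index_eq_one, centralizer_eq_top_iff_subset, Set.singleton_subset_iff]; rfl

theorem TwoCS.index_eq {n : ℕ} (h : TwoCS G n) {x : G} (hx : x ∉ center G) :
    (cz x).index = n := by
  rcases h.2 x with h1 | h1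
  · exact absurd (cz_index_one_iff.1 h1) hx
  · exact h1

theorem TwoCS.card_eq [Finite G] {n : ℕ} (h : TwoCS G n) {x y : G} (hx : x ∉ center G)
    (hy : y ∉ center G) : Nat.card (cz x) = Nat.card (cz y) := by
  have h1 := (cz x).card_mul_index
  have h2 := (cz y).card_mul_index
  rw [h.index_eq hx] at h1
  rw [h.index_eq hy] at h2
  exact Nat.eq_of_mul_eq_mul_right (by have := h.1; omega) (h1.trans h2.symm)

theorem TwoCS.eq_of_le [Finite G] {n : ℕ} (h : TwoCS G n) {x y : G} (hx : x ∉ center G)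
    (hy : y ∉ center G) (hle : cz x ≤ cz y) : cz x = cz y :=
  Subgroup.eq_of_le_of_card_ge hle (h.card_eq hx hy).ge

theorem cz_le_cz_pow (x : G) (m : ℕ) : cz x ≤ cz (x ^ m) := by
  intro g hg
  rw [mem_cz] at hg ⊢
  exact (Commute.pow_right (show Commute g x from hg) m)

theorem center_le_cz (x : G) : center G ≤ cz x := center_le_centralizer _

theorem TwoCS.cz_le_of_coprime [Finite G] {n : ℕ} (h : TwoCS G n) {x y : G}
    (hx : x ∉ center G) (hy : y ∈ cz x) (hcop : (orderOf x).Coprime (orderOf y)) :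
    cz x ≤ cz y := by
  have hc : Commute x y := (mem_cz.1 hy).symm
  obtain ⟨e, he1, he0⟩ := Nat.chineseRemainder hcop 1 0
  obtain ⟨f, hf0, hf1⟩ := Nat.chineseRemainder hcop 0 1
  have h1 : (x * y) ^ e = x := by
    rw [hc.mul_pow]
    have a1 : x ^ e = x ^ 1 := pow_eq_pow_iff_modEq.2 he1
    have a2 : y ^ e = y ^ 0 := pow_eq_pow_iff_modEq.2 he0
    rw [a1, a2]; simp
  have h2 : (x * y) ^ f = y := by
    rw [hc.mul_pow]
    have a1 : x ^ f = x ^ 0 := pow_eq_pow_iff_modEq.2 hf0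
    have a2 : y ^ f = y ^ 1 := pow_eq_pow_iff_modEq.2 hf1
    rw [a1, a2]; simp
  have l1 : cz (x * y) ≤ cz x := by
    have := cz_le_cz_pow (x * y) e
    rwa [h1] at this
  have l2 : cz (x * y) ≤ cz y := by
    have := cz_le_cz_pow (x * y) f
    rwa [h2] at this
  have hw : x * y ∉ center G := by
    intro hw
    apply hx
    rw [← h1]
    exact (center G).pow_mem hw e
  rw [← h.eq_of_le hw hx l1]
  exact l2

/-- splitting an element into its `p`-part and `p'`-part -/
theorem exists_split [Finite G] (k : G) {p : ℕ} (hp : p.Prime) :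
    ∃ a b : ℕ, (∃ i, orderOf (k ^ a) = p ^ i) ∧ (orderOf (k ^ b)).Coprime p ∧
      k = k ^ a * k ^ b := by
  obtain ⟨e, m, hm, ho⟩ := Nat.exists_eq_pow_mul_and_not_dvd (orderOf_pos k).ne' p hp.ne_one
  have hcop : (p ^ e).Coprime m := Nat.Coprime.pow_left e ((Nat.Prime.coprime_iff_not_dvd hp).2 hm)
  obtain ⟨a, ha1, ha0⟩ := Nat.chineseRemainder hcop 1 0
  obtain ⟨b, hb0, hb1⟩ := Nat.chineseRemainder hcop 0 1
  refine ⟨a, b, ?_, ?_, ?_⟩
  · have : orderOf (k ^ a) ∣ p ^ e := by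
      apply orderOf_dvd_of_pow_eq_one
      rw [← pow_mul]
      apply orderOf_dvd_iff_pow_eq_one.1
      rw [ho, mul_comm a]
      exact Nat.mul_dvd_mul_left _ ((Nat.modEq_zero_iff_dvd).1 ha0)
    obtain ⟨i, -, hi⟩ := (Nat.dvd_prime_pow hp).1 this
    exact ⟨i, hi⟩
  · have : orderOf (k ^ b) ∣ m := by
      apply orderOf_dvd_of_pow_eq_one
      rw [← pow_mul]
      apply orderOf_dvd_iff_pow_eq_one.1
      rw [ho]
      exact Nat.mul_dvd_mul_right ((Nat.modEq_zero_iff_dvd).1 hb0) _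
    exact Nat.Coprime.coprime_dvd_left this ((Nat.Prime.coprime_iff_not_dvd hp).2 hm).symm
  · rw [← pow_add]
    conv_lhs => rw [← pow_one k]
    rw [pow_eq_pow_iff_modEq, ho]
    apply (Nat.modEq_and_modEq_iff_modEq_mul hcop).1
    constructor
    · have := ha1.add hb0
      simpa using this.symm
    · have := ha0.add hb1
      simpa using this.symm

theorem TwoCS.abelian_of_two [Finite G] {n : ℕ} (h : TwoCS G n) {p q : ℕ} (hp : p.Prime)
    (hq : q.Prime) (hpq : p ≠ q) {x y : G} (hx : x ∉ center G) {i j : ℕ}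
    (hxo : orderOf x = p ^ i) (hy : y ∈ cz x) (hyZ : y ∉ center G) (hyo : orderOf y = q ^ j) :
    ∀ g ∈ cz x, ∀ k ∈ cz x, g * k = k * g := by
  have hcpq : p.Coprime q := (Nat.coprime_primes hp hq).2 hpq
  have hxy : cz x = cz y := h.eq_of_le hx hyZ
    (h.cz_le_of_coprime hx hy (by rw [hxo, hyo]; exact Nat.Coprime.pow _ _ hcpq))
  intro g hg k hk
  obtain ⟨a, b, ⟨i', hi'⟩, hb, hkab⟩ := exists_split k hp
  have h1 : g ∈ cz (k ^ b) :=
    h.cz_le_of_coprime hx ((cz x).pow_mem hk b)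
      (by rw [hxo]; exact Nat.Coprime.pow_left _ hb.symm) hg
  have h2 : g ∈ cz (k ^ a) :=
    h.cz_le_of_coprime hyZ (hxy ▸ (cz x).pow_mem hk a)
      (by rw [hyo, hi']; exact Nat.Coprime.pow _ _ hcpq.symm) (hxy ▸ hg)
  rw [mem_cz] at h1 h2
  rw [hkab, ← mul_assoc, h2, mul_assoc, h1, mul_assoc]

theorem dvd_relIndex_of_mem [Finite G] {r : ℕ} (hr : r.Prime) (H : Subgroup G) {k : G}
    (hk : k ∈ H) (hkZ : k ∉ center G) {j : ℕ} (hko : orderOf k = r ^ j) :
    r ∣ (center G).relIndex H := by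
  set K := (center G).subgroupOf H with hK
  have hne : (QuotientGroup.mk' K) ⟨k, hk⟩ ≠ 1 := by
    intro h1
    rw [QuotientGroup.mk'_apply, QuotientGroup.eq_one_iff, hK, mem_subgroupOf] at h1
    exact hkZ h1
  have hd : orderOf ((QuotientGroup.mk' K) ⟨k, hk⟩) ∣ r ^ j := by
    have := orderOf_map_dvd (QuotientGroup.mk' K) (⟨k, hk⟩ : H)
    rwa [← Subgroup.orderOf_coe, hko] at this
  obtain ⟨i, -, hi⟩ := (Nat.dvd_prime_pow hr).1 hd
  have hi0 : i ≠ 0 := by
    rintro rfl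
    rw [pow_zero, orderOf_eq_one_iff] at hi
    exact hne hi
  have h2 : r ∣ orderOf ((QuotientGroup.mk' K) ⟨k, hk⟩) := by
    rw [hi]; exact dvd_pow_self r hi0
  exact h2.trans (orderOf_dvd_natCard _)

theorem exists_mem_of_dvd_relIndex [Finite G] {r : ℕ} (hr : r.Prime) (H : Subgroup G)
    (hd : r ∣ (center G).relIndex H) :
    ∃ k ∈ H, k ∉ center G ∧ ∃ j : ℕ, orderOf k = r ^ j := by
  by_contra hcon
  push Not at hcon
  haveI : Fact r.Prime := ⟨hr⟩
  obtain ⟨R⟩ : Nonempty (Sylow r H) := inferInstance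
  have hle : (R : Subgroup H) ≤ (center G).subgroupOf H := by
    intro g hg
    rw [mem_subgroupOf]
    by_contra hgZ
    obtain ⟨j, hj⟩ := (IsPGroup.iff_orderOf.1 R.2) ⟨g, hg⟩
    apply hcon g g.2 hgZ j
    rw [← hj, Subgroup.orderOf_mk, Subgroup.orderOf_coe]
  exact R.not_dvd_index (hd.trans (Subgroup.index_dvd_of_le hle))

theorem TwoCS.exists_bad_mem [Finite G] {n : ℕ} (h : TwoCS G n) {r : ℕ} (hr : IsBad G r)
    {w : G} (hw : w ∉ center G) :
    ∃ d ∈ cz w, d ∉ center G ∧ ∃ j : ℕ, orderOf d = r ^ j := by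
  obtain ⟨hrp, y, hy, j, hj⟩ := hr
  apply exists_mem_of_dvd_relIndex hrp
  have h1 := dvd_relIndex_of_mem hrp (cz y) (self_mem_cz y) hy hj
  have key : ∀ v : G, (center G).relIndex (cz v) * Nat.card (center G) = Nat.card (cz v) := by
    intro v
    have := ((center G).subgroupOf (cz v)).card_mul_index
    rw [card_subgroupOf_of_le (center_le_cz v)] at this
    rw [mul_comm]; exact this
  have h2 := key y
  have h3 := key w
  rw [h.card_eq hy hw, ← h3] at h2
  rwa [Nat.eq_of_mul_eq_mul_right Nat.card_pos h2] at h1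

theorem TwoCS.abelian [Finite G] {n : ℕ} (h : TwoCS G n) {p q : ℕ} (hp : IsBad G p)
    (hq : IsBad G q) (hpq : p ≠ q) {w : G} (hw : w ∉ center G) :
    ∀ g ∈ cz w, ∀ k ∈ cz w, g * k = k * g := by
  obtain ⟨r, j, m, hr, hwm, hord⟩ := exists_primePow_notMem (center G) _ w rfl hw
  rw [h.eq_of_le hw hwm (cz_le_cz_pow w m)]
  by_cases hrq : r = q
  · obtain ⟨d, hd, hdZ, j', hj'⟩ := h.exists_bad_mem hp hwm
    exact h.abelian_of_two hr hp.1 (by rw [hrq]; exact hpq.symm) hwm hord hd hdZ hj'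
  · obtain ⟨d, hd, hdZ, j', hj'⟩ := h.exists_bad_mem hq hwm
    exact h.abelian_of_two hr hq.1 hrq hwm hord hd hdZ hj'

/-- the standing hypotheses of the contradiction argument -/
structure ItoB (G : Type*) [Group G] (n : ℕ) : Prop where
  two : TwoCS G n
  ab : ∀ w : G, w ∉ center G → ∀ g ∈ cz w, ∀ k ∈ cz w, g * k = k * g

theorem ItoB.cz_eq [Finite G] {n : ℕ} (h : ItoB G n) {w d : G} (hw : w ∉ center G)
    (hd : d ∈ cz w) (hdZ : d ∉ center G) : cz d = cz w := by
  refine (h.two.eq_of_le hw hdZ ?_).symm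
  intro g hg
  exact mem_cz.2 (h.ab w hw g hg d hd)

theorem ItoB.mem_of_comm [Finite G] {n : ℕ} (h : ItoB G n) {w d g : G} (hw : w ∉ center G)
    (hd : d ∈ cz w) (hdZ : d ∉ center G) (hg : g * d = d * g) : g ∈ cz w := by
  rw [← h.cz_eq hw hd hdZ]; exact mem_cz.2 hg

theorem conj_notMem_center {w : G} (hw : w ∉ center G) (g : G) : g * w * g⁻¹ ∉ center G := by
  intro h1
  apply hw
  have := (inferInstance : (center G).Normal).conj_mem _ h1 g⁻¹
  simpa [mul_assoc] using this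

theorem conj_mem_cz_conj {w d : G} (g : G) : g * d * g⁻¹ ∈ cz (g * w * g⁻¹) ↔ d ∈ cz w := by
  rw [mem_cz, mem_cz]
  constructor
  · intro h1
    have h2 : g * (d * w) * g⁻¹ = g * (w * d) * g⁻¹ := by
      calc g * (d * w) * g⁻¹ = g * d * g⁻¹ * (g * w * g⁻¹) := by group
        _ = g * w * g⁻¹ * (g * d * g⁻¹) := h1
        _ = _ := by group
    exact mul_left_cancel (mul_right_cancel h2)
  · intro h1
    calc g * d * g⁻¹ * (g * w * g⁻¹) = g * (d * w) * g⁻¹ := by group
      _ = g * (w * d) * g⁻¹ := by rw [h1]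
      _ = _ := by group

theorem ItoB.mem_normalizer_iff [Finite G] {n : ℕ} (h : ItoB G n) {w g : G}
    (hw : w ∉ center G) : g ∈ normalizer (cz w : Set G) ↔ g * w * g⁻¹ ∈ cz w := by
  constructor
  · intro hg
    exact (Subgroup.mem_normalizer_iff.1 hg w).1 (self_mem_cz w)
  · intro hg
    rw [Subgroup.mem_normalizer_iff]
    intro k
    rw [← conj_mem_cz_conj g, h.cz_eq hw hg (conj_notMem_center hw g)]

theorem ItoB.inf_le_center [Finite G] {n : ℕ} (h : ItoB G n) {w w' d : G}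
    (hw : w ∉ center G) (hw' : w' ∉ center G) (hne : w' ∉ cz w) (hd : d ∈ cz w)
    (hd' : d ∈ cz w') : d ∈ center G := by
  by_contra hdZ
  apply hne
  rw [← h.cz_eq hw hd hdZ, h.cz_eq hw' hd' hdZ]
  exact self_mem_cz w'

end Cfsg.H1
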