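import Mathlib
import Cfsg.Agent.H1.Ito1
import Cfsg.Agent.H4.Nilp

set_option autoImplicit false

namespace Cfsg.H1

open Subgroup

variable {G : Type*} [Group G]

/-- the `p`-part of an abelian subgroup -/
def primPart (E : Subgroup G) (hE : ∀ a ∈ E, ∀ b ∈ E, a * b = b * a) (p : ℕ) : Subgroup G where
  carrier := {d | d ∈ E ∧ ∃ k : ℕ, d ^ p ^ k = 1}
  mul_mem' := by
    rintro a b ⟨ha, k, hk⟩ ⟨hb, l, hl⟩
    refine ⟨E.mul_mem ha hb, k + l, ?_⟩
    rw [(show Commute a b from hE a ha b hb).mul_pow, pow_add, pow_mul, hk, one_pow,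
      mul_comm (p ^ k), pow_mul, hl, one_pow, one_mul]
  one_mem' := ⟨E.one_mem, 0, by simp⟩
  inv_mem' := by
    rintro a ⟨ha, k, hk⟩
    exact ⟨E.inv_mem ha, k, by rw [inv_pow, hk, inv_one]⟩

theorem mem_primPart {E : Subgroup G} {hE : ∀ a ∈ E, ∀ b ∈ E, a * b = b * a} {p : ℕ} {d : G} :
    d ∈ primPart E hE p ↔ d ∈ E ∧ ∃ k : ℕ, d ^ p ^ k = 1 := Iff.rfl

theorem primPart_le (E : Subgroup G) (hE : ∀ a ∈ E, ∀ b ∈ E, a * b = b * a) (p : ℕ) :
    primPart E hE p ≤ E := fun _ hd => hd.1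

theorem primPart_isPGroup (E : Subgroup G) (hE : ∀ a ∈ E, ∀ b ∈ E, a * b = b * a) (p : ℕ) :
    IsPGroup p (primPart E hE p) := by
  rintro ⟨d, hd, k, hk⟩
  exact ⟨k, Subtype.ext hk⟩

theorem primPart_conj_mem {E : Subgroup G} {hE : ∀ a ∈ E, ∀ b ∈ E, a * b = b * a} {p : ℕ}
    {g d : G} (hg : g ∈ normalizer (E : Set G)) (hd : d ∈ primPart E hE p) :
    g * d * g⁻¹ ∈ primPart E hE p := by
  obtain ⟨hdE, k, hk⟩ := hd
  exact ⟨(Subgroup.mem_normalizer_iff.1 hg d).1 hdE, k, by rw [conj_pow, hk]; simp⟩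

theorem normalizer_le_normalizer_primPart (E : Subgroup G)
    (hE : ∀ a ∈ E, ∀ b ∈ E, a * b = b * a) (p : ℕ) :
    normalizer (E : Set G) ≤ normalizer (primPart E hE p : Set G) := by
  intro g hg
  rw [Subgroup.mem_normalizer_iff]
  intro d
  refine ⟨primPart_conj_mem hg, fun hd => ?_⟩
  have := primPart_conj_mem (inv_mem hg) hd
  simpa [mul_assoc] using this

theorem exists_central_mod [Finite G] {q : ℕ} [Fact q.Prime] (Q M : Subgroup G)
    (hQ : IsPGroup q Q) (hMQ : M ≤ Q) (hn : ∀ g ∈ Q, ∀ d ∈ M, g * d * g⁻¹ ∈ M)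
    (hM : ¬ M ≤ center G) :
    ∃ d ∈ M, d ∉ center G ∧ ∀ g ∈ Q, g * d * g⁻¹ * d⁻¹ ∈ center G := by
  set K := (center G).subgroupOf Q with hK
  haveI : Group.IsNilpotent (Q ⧸ K) := (hQ.to_quotient K).isNilpotent
  have hMn : (M.subgroupOf Q).Normal := by
    constructor
    intro d hd g
    rw [mem_subgroupOf] at hd ⊢
    exact hn g g.2 d hd
  set M' : Subgroup (Q ⧸ K) := (M.subgroupOf Q).map (QuotientGroup.mk' K) with hM'
  haveI : M'.Normal := hMn.map _ (QuotientGroup.mk'_surjective K)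
  have hne : M' ≠ ⊥ := by
    intro hbot
    apply hM
    intro d hd
    have : (QuotientGroup.mk' K) ⟨d, hMQ hd⟩ ∈ M' := mem_map_of_mem _ (mem_subgroupOf.2 hd)
    rw [hbot, mem_bot, QuotientGroup.mk'_apply, QuotientGroup.eq_one_iff, hK,
      mem_subgroupOf] at this
    exact this
  have h1 := Cfsg.Agent.H4.normal_inf_center_ne_bot M' hne
  obtain ⟨⟨x, hx⟩, hx1⟩ := Subgroup.ne_bot_iff_exists_ne_one.1 h1
  obtain ⟨hxM, hxZ⟩ := hx
  obtain ⟨d, hd, rfl⟩ := hxM
  refine ⟨d, mem_subgroupOf.1 hd, ?_, ?_⟩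
  · intro hdZ
    apply hx1
    apply Subtype.ext
    show (QuotientGroup.mk' K) d = 1
    rw [QuotientGroup.mk'_apply, QuotientGroup.eq_one_iff, hK, mem_subgroupOf]
    exact hdZ
  · intro g hg
    have h2 := mem_center_iff.1 hxZ ((QuotientGroup.mk' K) ⟨g, hg⟩)
    have h3 : (QuotientGroup.mk' K) (⟨g, hg⟩ * d * ⟨g, hg⟩⁻¹ * d⁻¹) = 1 := by
      rw [map_mul, map_mul, map_mul, map_inv, map_inv, h2]
      group
    rw [QuotientGroup.mk'_apply, QuotientGroup.eq_one_iff, hK, mem_subgroupOf] at h3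
    exact h3

theorem ItoB.trick [Finite G] {n : ℕ} (h : ItoB G n) {w : G} (hw : w ∉ center G) {p q : ℕ}
    (hp : p.Prime) (hpq : p ≠ q) (hbad : IsBad G q) {s t : G}
    (hs : s ∈ normalizer (cz w : Set G)) (ht : t ∈ normalizer (cz w : Set G))
    (hsE : s ∉ cz w) (htE : t ∉ cz w) {i j : ℕ} (hso : orderOf s = p ^ i)
    (hto : orderOf t = q ^ j)
    (hc : ∀ d ∈ cz w, s * (t * d * t⁻¹) * s⁻¹ = t * (s * d * s⁻¹) * t⁻¹) : False := by
  have hq := hbad.1
  haveI : Fact q.Prime := ⟨hq⟩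
  obtain ⟨y, hy, hyZ, jy, hyo⟩ := h.two.exists_bad_mem hbad hw
  set M := primPart (cz w) (h.ab w hw) q with hM
  have hMp : IsPGroup q M := primPart_isPGroup _ _ _
  have htN : zpowers t ≤ normalizer (cz w : Set G) := by rwa [zpowers_le]
  have hQ : IsPGroup q (zpowers t ⊔ M : Subgroup G) :=
    IsPGroup.to_sup_of_normal_right' (IsPGroup.of_card (n := j) (by rw [Nat.card_zpowers, hto]))
      hMp (htN.trans (normalizer_le_normalizer_primPart _ _ _))
  have hQN : (zpowers t ⊔ M : Subgroup G) ≤ normalizer (cz w : Set G) :=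
    sup_le htN ((primPart_le _ _ _).trans le_normalizer)
  have hyM : y ∈ M := ⟨hy, jy, by rw [← hyo, pow_orderOf_eq_one]⟩
  obtain ⟨d, hdM, hdZ, hdc⟩ := exists_central_mod (zpowers t ⊔ M) M hQ le_sup_right
    (fun g hg d hd => primPart_conj_mem (hQN hg) hd) (fun hle => hyZ (hle hyM))
  obtain ⟨hdE, k, hdk⟩ := hdM
  have hz := hdc t (le_sup_left (a := zpowers t) (mem_zpowers t))
  set z := t * d * t⁻¹ * d⁻¹ with hzdef
  have htd : t * d * t⁻¹ = z * d := by rw [hzdef]; group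
  have hd'E : s * d * s⁻¹ ∈ cz w := (Subgroup.mem_normalizer_iff.1 hs d).1 hdE
  have hzc : ∀ g : G, g * z = z * g := fun g => mem_center_iff.1 hz g
  have htd' : t * (s * d * s⁻¹) * t⁻¹ = z * (s * d * s⁻¹) := by
    rw [← hc d hdE, htd]
    calc s * (z * d) * s⁻¹ = (s * z) * d * s⁻¹ := by group
      _ = (z * s) * d * s⁻¹ := by rw [hzc s]
      _ = _ := by group
  set u := s * d * s⁻¹ * d⁻¹ with hu
  have huE : u ∈ cz w := (cz w).mul_mem hd'E ((cz w).inv_mem hdE)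
  have htu : t * u = u * t := by
    have h1 : t * u * t⁻¹ = u := by
      calc t * u * t⁻¹ = (t * (s * d * s⁻¹) * t⁻¹) * (t * d * t⁻¹)⁻¹ := by rw [hu]; group
        _ = (z * (s * d * s⁻¹)) * (z * d)⁻¹ := by rw [htd', htd]
        _ = z * (s * d * s⁻¹ * d⁻¹) * z⁻¹ := by group
        _ = (s * d * s⁻¹ * d⁻¹) * z * z⁻¹ := by rw [← hzc]
        _ = u := by rw [hu]; group
    calc t * u = t * u * t⁻¹ * t := by group
      _ = u * t := by rw [h1]
  have huZ : u ∈ center G := by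
    by_contra huZ
    exact htE (h.mem_of_comm hw huE huZ htu)
  have huc : ∀ g : G, g * u = u * g := fun g => mem_center_iff.1 huZ g
  have hsd : s * d * s⁻¹ = u * d := by rw [hu]; group
  have hpow : ∀ m : ℕ, s ^ m * d * (s ^ m)⁻¹ = u ^ m * d := by
    intro m
    induction m with
    | zero => simp
    | succ m ih =>
      calc s ^ (m + 1) * d * (s ^ (m + 1))⁻¹ = s * (s ^ m * d * (s ^ m)⁻¹) * s⁻¹ := by
            rw [pow_succ']; group
        _ = s * (u ^ m * d) * s⁻¹ := by rw [ih]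
        _ = (s * u ^ m) * d * s⁻¹ := by group
        _ = (u ^ m * s) * d * s⁻¹ := by
            rw [(Commute.pow_right (show Commute s u from huc s) m).eq]
        _ = u ^ m * (s * d * s⁻¹) := by group
        _ = u ^ m * (u * d) := by rw [hsd]
        _ = u ^ (m + 1) * d := by rw [pow_succ]; group
  have hu1 : u ^ p ^ i = 1 := by
    have := hpow (orderOf s)
    rw [pow_orderOf_eq_one] at this
    rw [← hso]
    simpa using this.symm
  have hu2 : u ^ q ^ k = 1 := by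
    have hcomm : Commute (s * d * s⁻¹) d⁻¹ := h.ab w hw _ hd'E _ ((cz w).inv_mem hdE)
    rw [hu, hcomm.mul_pow, conj_pow, inv_pow, hdk]; simp
  have hu0 : u = 1 := by
    have hcop : (p ^ i).Coprime (q ^ k) := Nat.Coprime.pow _ _ ((Nat.coprime_primes hp hq).2 hpq)
    have := mem_of_pow_mem_of_coprime (⊥ : Subgroup G) u hcop (by rw [hu1]; exact one_mem _)
      (by rw [hu2]; exact one_mem _)
    exact this
  apply hsE
  apply h.mem_of_comm hw hdE hdZ
  rw [hu0, one_mul] at hsd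
  calc s * d = s * d * s⁻¹ * s := by group
    _ = d * s := by rw [hsd]

end Cfsg.H1
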