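import Mathlib

set_option autoImplicit false

namespace Cfsg.H1

open Subgroup

variable {M : Type*} [CommGroup M] {p : ℕ} [Fact p.Prime]

/-- the norm of `v` under the cyclic group generated by `g` -/
noncomputable def autNorm (p : ℕ) [Fact p.Prime] (g : MulAut M) (v : M) : M :=
  ∏ k : ZMod p, (g ^ k.val) v

theorem pow_val_cast {g : MulAut M} (hg : g ^ p = 1) (a : ℕ) :
    g ^ ((a : ZMod p).val) = g ^ a := by
  rw [ZMod.val_natCast, ← pow_eq_pow_mod a hg]

theorem autNorm_fixed {g : MulAut M} (hg : g ^ p = 1) (v : M) :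
    g (autNorm p g v) = autNorm p g v := by
  unfold autNorm
  rw [map_prod]
  refine Fintype.prod_equiv (Equiv.addRight (1 : ZMod p)) _ _ ?_
  intro k
  have h1 : g ^ ((k + 1 : ZMod p).val) = g ^ (k.val + 1) := by
    rw [← pow_val_cast hg (k.val + 1)]
    congr 2
    push_cast
    rw [ZMod.natCast_zmod_val]
  show g ((g ^ k.val) v) = (g ^ ((k + 1 : ZMod p).val)) v
  rw [h1, pow_succ', MulAut.mul_apply]

theorem rank_lemma (α β : MulAut M) (hc : Commute α β) (hα : α ^ p = 1) (hβ : β ^ p = 1)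
    (Z₀ : Subgroup M)
    (hfix : ∀ i j : ℕ, i < p → j < p → (i ≠ 0 ∨ j ≠ 0) → ∀ v, (α ^ i * β ^ j) v = v → v ∈ Z₀)
    (v : M) : v ^ p ∈ Z₀ := by
  have hp1 : 1 < p := (Fact.out : p.Prime).one_lt
  have hp0 : 0 < p := by omega
  set F : ZMod p → ZMod p → M := fun k l => (α ^ k.val * β ^ l.val) v with hF
  have h1 : ∀ j : ZMod p, autNorm p (α * β ^ j.val) v = ∏ k : ZMod p, F k (j * k) := by
    intro j
    unfold autNorm
    refine Finset.prod_congr rfl fun k _ => ?_
    have h2 : β ^ ((j * k : ZMod p).val) = β ^ (j.val * k.val) := by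
      rw [← pow_val_cast hβ (j.val * k.val)]
      congr 2
      push_cast
      rw [ZMod.natCast_zmod_val, ZMod.natCast_zmod_val]
    rw [hF]
    show ((α * β ^ j.val) ^ k.val) v = (α ^ k.val * β ^ ((j * k : ZMod p).val)) v
    rw [h2, (hc.pow_right _).mul_pow, ← pow_mul]
  have h3 : (∏ j : ZMod p, autNorm p (α * β ^ j.val) v) * autNorm p β v
      = v ^ p * ∏ k : ZMod p, ∏ l : ZMod p, F k l := by
    simp_rw [h1]
    rw [Finset.prod_comm, Fintype.prod_eq_mul_prod_compl (0 : ZMod p),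
      Fintype.prod_eq_mul_prod_compl (0 : ZMod p) (fun k => ∏ l : ZMod p, F k l)]
    have e1 : ∏ j : ZMod p, F 0 (j * 0) = v ^ p := by
      simp [hF, ZMod.card]
    have e2 : ∏ l : ZMod p, F 0 l = autNorm p β v := by
      unfold autNorm
      simp [hF]
    have e3 : ∏ k ∈ ({0} : Finset (ZMod p))ᶜ, ∏ j : ZMod p, F k (j * k)
        = ∏ k ∈ ({0} : Finset (ZMod p))ᶜ, ∏ l : ZMod p, F k l := by
      refine Finset.prod_congr rfl fun k hk => ?_
      have hk0 : k ≠ 0 := by simpa using hk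
      exact Fintype.prod_equiv (Equiv.mulRight₀ k hk0) _ _ (fun j => rfl)
    rw [e1, e2, e3]
    rw [mul_assoc, mul_comm (autNorm p β v)]
  have h4 : ∏ k : ZMod p, ∏ l : ZMod p, F k l = autNorm p α (autNorm p β v) := by
    unfold autNorm
    refine Finset.prod_congr rfl fun k _ => ?_
    rw [map_prod]
    rfl
  have m1 : ∀ j : ZMod p, autNorm p (α * β ^ j.val) v ∈ Z₀ := by
    intro j
    apply hfix 1 j.val hp1 (ZMod.val_lt j) (Or.inl one_ne_zero)
    rw [pow_one]
    apply autNorm_fixed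
    rw [(hc.pow_right _).mul_pow, hα, ← pow_mul, mul_comm, pow_mul, hβ, one_pow, one_mul]
  have m2 : autNorm p β v ∈ Z₀ := by
    apply hfix 0 1 hp0 hp1 (Or.inr one_ne_zero)
    rw [pow_zero, one_mul, pow_one]
    exact autNorm_fixed hβ v
  have m3 : autNorm p α (autNorm p β v) ∈ Z₀ := by
    apply hfix 1 0 hp1 hp0 (Or.inl one_ne_zero)
    rw [pow_zero, mul_one, pow_one]
    exact autNorm_fixed hα _
  have h5 : v ^ p = (∏ j : ZMod p, autNorm p (α * β ^ j.val) v) * autNorm p β v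
      * (autNorm p α (autNorm p β v))⁻¹ := by
    rw [h3, h4]; group
  rw [h5]
  exact Z₀.mul_mem (Z₀.mul_mem (Subgroup.prod_mem _ fun j _ => m1 j) m2) (Z₀.inv_mem m3)

theorem rank_lemma' {M : Type*} [inst : Group M] (hM : ∀ a b : M, a * b = b * a) {p : ℕ}
    [Fact p.Prime] (α β : MulAut M) (hc : Commute α β) (hα : α ^ p = 1) (hβ : β ^ p = 1)
    (Z₀ : Subgroup M)
    (hfix : ∀ i j : ℕ, i < p → j < p → (i ≠ 0 ∨ j ≠ 0) → ∀ v, (α ^ i * β ^ j) v = v → v ∈ Z₀)
    (v : M) : v ^ p ∈ Z₀ := by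
  letI : CommGroup M := { inst with mul_comm := hM }
  exact rank_lemma α β hc hα hβ Z₀ hfix v

end Cfsg.H1
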