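import Mathlib
import Cfsg.Agent.H1.Ito2
import Cfsg.Agent.H1.Ito3

set_option autoImplicit false

namespace Cfsg.H1

open Subgroup

variable {G : Type*} [Group G]

theorem conj_pow_of_central {s d u : G} (hu : u ∈ center G) (hsd : s * d * s⁻¹ = u * d) (m : ℕ) :
    s ^ m * d * (s ^ m)⁻¹ = u ^ m * d := by
  have huc : ∀ g : G, g * u = u * g := fun g => mem_center_iff.1 hu g
  induction m with
  | zero => simp
  | succ m ih =>
    calc s ^ (m + 1) * d * (s ^ (m + 1))⁻¹ = s * (s ^ m * d * (s ^ m)⁻¹) * s⁻¹ := by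
          rw [pow_succ']; group
      _ = s * (u ^ m * d) * s⁻¹ := by rw [ih]
      _ = (s * u ^ m) * d * s⁻¹ := by group
      _ = (u ^ m * s) * d * s⁻¹ := by
          rw [(Commute.pow_right (show Commute s u from huc s) m).eq]
      _ = u ^ m * (s * d * s⁻¹) := by group
      _ = u ^ m * (u * d) := by rw [hsd]
      _ = u ^ (m + 1) * d := by rw [pow_succ]; group

/-- a noncentral `p`-element of `E` whose `p`-th power is central -/
theorem ItoB.exists_e0 [Finite G] {n : ℕ} (h : ItoB G n) {w : G} (hw : w ∉ center G) {p : ℕ}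
    (hp : IsBad G p) :
    ∃ e ∈ primPart (cz w) (h.ab w hw) p, e ∉ center G ∧ e ^ p ∈ center G := by
  classical
  obtain ⟨e1, he1, he1Z, k, hk⟩ := h.two.exists_bad_mem hp hw
  have hex : ∃ m : ℕ, e1 ^ p ^ m ∈ center G := ⟨k, by rw [← hk, pow_orderOf_eq_one]; exact one_mem _⟩
  have hm0 : Nat.find hex ≠ 0 := by
    intro h0
    have := Nat.find_spec hex
    rw [h0] at this
    simp at this
    exact he1Z this
  obtain ⟨m, hm⟩ := Nat.exists_eq_succ_of_ne_zero hm0
  refine ⟨e1 ^ p ^ m, ⟨(cz w).pow_mem he1 _, k, ?_⟩, ?_, ?_⟩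
  · rw [← pow_mul, mul_comm, pow_mul, ← hk, pow_orderOf_eq_one, one_pow]
  · exact Nat.find_min hex (by omega)
  · have := Nat.find_spec hex
    rw [hm, Nat.succ_eq_add_one, pow_succ, pow_mul] at this
    exact this

theorem ItoB.hom_eq_one_iff [Finite G] {n : ℕ} (h : ItoB G n) {w : G} (hw : w ∉ center G)
    (g : normalizer (cz w : Set G)) : (cz w).normalizerMonoidHom g = 1 ↔ (g : G) ∈ cz w := by
  constructor
  · intro h1
    have h2 := congrArg (fun f : MulAut (cz w) => ((f ⟨w, self_mem_cz w⟩ : cz w) : G)) h1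
    simp only [normalizerMonoidHom_apply_apply_coe, MulAut.one_apply] at h2
    rw [mem_cz]
    calc (g : G) * w = (g : G) * w * (g : G)⁻¹ * g := by group
      _ = w * g := by rw [h2]
  · intro hg
    ext v
    rw [normalizerMonoidHom_apply_apply_coe, MulAut.one_apply, h.ab w hw _ hg _ v.2]
    group

theorem ItoB.pow_p_mem [Finite G] {n : ℕ} (h : ItoB G n) {w : G} (hw : w ∉ center G) {p : ℕ}
    {e x : G} (he : e ∈ cz w) (heZ : e ∉ center G) (hep : e ^ p ∈ center G)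
    (hx : x * e * x⁻¹ * e⁻¹ ∈ center G) : x ^ p ∈ cz w := by
  set z := x * e * x⁻¹ * e⁻¹ with hz
  have hxe : x * e * x⁻¹ = z * e := by rw [hz]; group
  have hzc : ∀ g : G, g * z = z * g := fun g => mem_center_iff.1 hx g
  have h1 : (x * e * x⁻¹) ^ p = e ^ p := by
    rw [conj_pow]
    have := mem_center_iff.1 hep x
    rw [this]; group
  have h2 : z ^ p = 1 := by
    rw [hxe, (show Commute z e from (hzc e).symm).mul_pow] at h1
    exact mul_eq_right.1 h1
  have h3 := conj_pow_of_central hx hxe p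
  rw [h2, one_mul] at h3
  apply h.mem_of_comm hw he heZ
  calc x ^ p * e = x ^ p * e * (x ^ p)⁻¹ * x ^ p := by group
    _ = e * x ^ p := by rw [h3]

theorem ItoB.comm_mem [Finite G] {n : ℕ} (h : ItoB G n) {w : G} (hw : w ∉ center G)
    {e x x' : G} (he : e ∈ cz w) (heZ : e ∉ center G)
    (hx : x * e * x⁻¹ * e⁻¹ ∈ center G) (hx' : x' * e * x'⁻¹ * e⁻¹ ∈ center G) :
    (x' * x)⁻¹ * (x * x') ∈ cz w := by
  set z := x * e * x⁻¹ * e⁻¹ with hz
  set z' := x' * e * x'⁻¹ * e⁻¹ with hz'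
  have hxe : x * e * x⁻¹ = z * e := by rw [hz]; group
  have hxe' : x' * e * x'⁻¹ = z' * e := by rw [hz']; group
  have hzc : ∀ g : G, g * z = z * g := fun g => mem_center_iff.1 hx g
  have hzc' : ∀ g : G, g * z' = z' * g := fun g => mem_center_iff.1 hx' g
  have h1 : (x * x') * e * (x * x')⁻¹ = z' * z * e := by
    calc (x * x') * e * (x * x')⁻¹ = x * (x' * e * x'⁻¹) * x⁻¹ := by group
      _ = x * (z' * e) * x⁻¹ := by rw [hxe']
      _ = (x * z') * e * x⁻¹ := by group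
      _ = (z' * x) * e * x⁻¹ := by rw [hzc']
      _ = z' * (x * e * x⁻¹) := by group
      _ = z' * (z * e) := by rw [hxe]
      _ = _ := by group
  have h2 : (x' * x) * e * (x' * x)⁻¹ = z' * z * e := by
    calc (x' * x) * e * (x' * x)⁻¹ = x' * (x * e * x⁻¹) * x'⁻¹ := by group
      _ = x' * (z * e) * x'⁻¹ := by rw [hxe]
      _ = (x' * z) * e * x'⁻¹ := by group
      _ = (z * x') * e * x'⁻¹ := by rw [hzc]
      _ = z * (x' * e * x'⁻¹) := by group
      _ = z * (z' * e) := by rw [hxe']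
      _ = (z * z') * e := by group
      _ = (z' * z) * e := by rw [hzc' z]
  apply h.mem_of_comm hw he heZ
  have h3 : (x * x') * e = (z' * z * e) * (x * x') := by rw [← h1]; group
  have h4 : e * (x' * x)⁻¹ = (x' * x)⁻¹ * (z' * z * e) := by rw [← h2]; group
  calc (x' * x)⁻¹ * (x * x') * e = (x' * x)⁻¹ * ((x * x') * e) := by group
    _ = (x' * x)⁻¹ * ((z' * z * e) * (x * x')) := by rw [h3]
    _ = ((x' * x)⁻¹ * (z' * z * e)) * (x * x') := by group
    _ = (e * (x' * x)⁻¹) * (x * x') := by rw [h4]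
    _ = _ := by group

theorem ItoB.comm_of_M1 [Finite G] {n : ℕ} (h : ItoB G n) {w : G} (hw : w ∉ center G) {p q : ℕ}
    (hp : IsBad G p) (hq : IsBad G q) (hlt : p < q) {a t : G}
    (ha : a ∈ normalizer (cz w : Set G)) (ht : t ∈ normalizer (cz w : Set G)) (haE : a ∉ cz w)
    (haM : ∀ d ∈ primPart (cz w) (h.ab w hw) p, a * d * a⁻¹ * d⁻¹ ∈ center G) {j : ℕ}
    (hto : orderOf t = q ^ j) :
    ∀ d ∈ cz w, a * (t * d * t⁻¹) * a⁻¹ = t * (a * d * a⁻¹) * t⁻¹ := by
  haveI : Fact p.Prime := ⟨hp.1⟩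
  obtain ⟨e, heP, heZ, hep⟩ := h.exists_e0 hw hp
  have heE := heP.1
  have hb : t * a * t⁻¹ ∈ normalizer (cz w : Set G) := mul_mem (mul_mem ht ha) (inv_mem ht)
  have hbM : ∀ d ∈ primPart (cz w) (h.ab w hw) p,
      (t * a * t⁻¹) * d * (t * a * t⁻¹)⁻¹ * d⁻¹ ∈ center G := by
    intro d hd
    have h0 : t⁻¹ * d * t ∈ primPart (cz w) (h.ab w hw) p := by
      have := primPart_conj_mem (inv_mem ht) hd
      simpa using this
    have h1 := haM (t⁻¹ * d * t) h0
    have h2 := (inferInstance : (center G).Normal).conj_mem _ h1 t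
    convert h2 using 1
    group
  obtain ⟨φ, hφ⟩ : ∃ φ, φ = (cz w).normalizerMonoidHom := ⟨_, rfl⟩
  have hφ1 : ∀ g : normalizer (cz w : Set G), φ g = 1 ↔ (g : G) ∈ cz w := by
    intro g; rw [hφ]; exact h.hom_eq_one_iff hw g
  have hφa : ∀ (g : normalizer (cz w : Set G)) (v : cz w), ((φ g v : cz w) : G) = g * v * (g : G)⁻¹ := by
    intro g v; rw [hφ]; exact normalizerMonoidHom_apply_apply_coe _ g v
  obtain ⟨α, hαd⟩ : ∃ α, α = φ ⟨a, ha⟩ := ⟨_, rfl⟩
  obtain ⟨β, hβd⟩ : ∃ β, β = φ ⟨t * a * t⁻¹, hb⟩ := ⟨_, rfl⟩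
  obtain ⟨τ, hτd⟩ : ∃ τ, τ = φ ⟨t, ht⟩ := ⟨_, rfl⟩
  have hβ' : β = τ * α * τ⁻¹ := by
    rw [hβd, hτd, hαd, ← map_inv, ← map_mul, ← map_mul]; rfl
  have hα : α ^ p = 1 := by
    rw [hαd, ← map_pow, hφ1]
    exact h.pow_p_mem hw heE heZ hep (haM e heP)
  have hβ : β ^ p = 1 := by
    rw [hβd, ← map_pow, hφ1]
    exact h.pow_p_mem hw heE heZ hep (hbM e heP)
  have hαβ : Commute α β := by
    have h1 : φ ((⟨t * a * t⁻¹, hb⟩ * ⟨a, ha⟩)⁻¹ * (⟨a, ha⟩ * ⟨t * a * t⁻¹, hb⟩)) = 1 :=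
      (hφ1 _).2 (h.comm_mem hw heE heZ (haM e heP) (hbM e heP))
    rw [map_mul, map_inv, inv_mul_eq_one] at h1
    show α * β = β * α
    rw [hαd, hβd, ← map_mul, ← map_mul, h1]
  have hα1 : α ≠ 1 := fun h1 => haE ((hφ1 ⟨a, ha⟩).1 (hαd ▸ h1))
  have hrel : ∃ i k : ℕ, i < p ∧ k < p ∧ (i ≠ 0 ∨ k ≠ 0) ∧ α ^ i * β ^ k = 1 := by
    by_contra hcon
    push Not at hcon
    obtain ⟨y, hy, hyZ, jy, hyo⟩ := h.two.exists_bad_mem hq hw
    have key := rank_lemma' (M := cz w) (fun x y => Subtype.ext (h.ab w hw x x.2 y y.2)) α β hαβ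
      hα hβ ((center G).subgroupOf (cz w)) ?_ ⟨y, hy⟩
    · rw [mem_subgroupOf] at key
      apply hyZ
      have hcop : p.Coprime (q ^ jy) :=
        Nat.Coprime.pow_right _ ((Nat.coprime_primes hp.1 hq.1).2 hlt.ne)
      exact mem_of_pow_mem_of_coprime (center G) y hcop key
        (by rw [← hyo, pow_orderOf_eq_one]; exact one_mem _)
    · intro i k hi hk hik v hv
      rw [mem_subgroupOf]
      by_contra hvZ
      apply hcon i k hi hk hik
      rw [hαd, hβd, ← map_pow, ← map_pow, ← map_mul, hφ1]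
      apply h.mem_of_comm hw v.2 hvZ
      have h2 := congrArg Subtype.val hv
      rw [hαd, hβd, ← map_pow, ← map_pow, ← map_mul, hφa] at h2
      generalize ((⟨a, ha⟩ ^ i * ⟨t * a * t⁻¹, hb⟩ ^ k : normalizer (cz w : Set G)) : G) = g at h2 ⊢
      calc g * v = g * v * g⁻¹ * g := by group
        _ = v * g := by rw [h2]
  obtain ⟨i, k, hi, hk, hik, hrel⟩ := hrel
  have hβmem : β ∈ zpowers α := by
    have hk0 : k ≠ 0 := by
      rintro rfl
      have hi0 : i ≠ 0 := hik.resolve_right (by simp)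
      rw [pow_zero, mul_one] at hrel
      apply hα1
      have hcop : i.Coprime p := (Nat.coprime_of_lt_prime hi0 hi hp.1).symm
      have := mem_of_pow_mem_of_coprime (⊥ : Subgroup (MulAut (cz w))) α hcop
        (by rw [hrel]; exact one_mem _) (by rw [hα]; exact one_mem _)
      exact this
    have hcop : k.Coprime p := (Nat.coprime_of_lt_prime hk0 hk hp.1).symm
    apply mem_of_pow_mem_of_coprime (zpowers α) β hcop
    · have : β ^ k = (α ^ i)⁻¹ := eq_inv_of_mul_eq_one_right hrel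
      rw [this]; exact inv_mem (pow_mem (mem_zpowers α) i)
    · rw [hβ]; exact one_mem _
  have hfin : IsOfFinOrder α := isOfFinOrder_iff_pow_eq_one.2 ⟨p, hp.1.pos, hα⟩
  obtain ⟨m, hm⟩ := hfin.mem_powers_iff_mem_zpowers.2 hβmem
  have hm : α ^ m = β := hm
  have hconj : ∀ k : ℕ, τ ^ k * α * (τ ^ k)⁻¹ = α ^ (m ^ k) := by
    intro k
    induction k with
    | zero => simp
    | succ k ih =>
      calc τ ^ (k + 1) * α * (τ ^ (k + 1))⁻¹ = τ * (τ ^ k * α * (τ ^ k)⁻¹) * τ⁻¹ := by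
            rw [pow_succ']; group
        _ = τ * α ^ (m ^ k) * τ⁻¹ := by rw [ih]
        _ = (τ * α * τ⁻¹) ^ (m ^ k) := by rw [conj_pow]
        _ = (α ^ m) ^ (m ^ k) := by rw [← hβ', hm]
        _ = α ^ (m ^ (k + 1)) := by rw [← pow_mul, pow_succ']
  have hτ : τ ^ (q ^ j) = 1 := by
    rw [hτd, ← map_pow]
    have : (⟨t, ht⟩ : normalizer (cz w : Set G)) ^ (q ^ j) = 1 := by
      apply Subtype.ext
      show t ^ (q ^ j) = 1
      rw [← hto, pow_orderOf_eq_one]
    rw [this, map_one]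
  have h1 := hconj (q ^ j)
  rw [hτ] at h1
  simp only [one_mul, inv_one, mul_one] at h1
  have hoα : orderOf α = p := orderOf_eq_prime hα hα1
  have hmod : m ^ (q ^ j) ≡ 1 [MOD p] := by
    rw [← hoα, ← pow_eq_pow_iff_modEq, pow_one]; exact h1.symm
  have hx : ((m : ZMod p)) ^ (q ^ j) = 1 := by
    have := (ZMod.natCast_eq_natCast_iff _ _ _).2 hmod
    push_cast at this
    exact this
  have hx0 : (m : ZMod p) ≠ 0 := by
    intro h0
    rw [h0, zero_pow (pow_ne_zero _ hq.1.ne_zero)] at hx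
    exact zero_ne_one hx
  have hx2 := ZMod.pow_card_sub_one_eq_one hx0
  have hg : (q ^ j).gcd (p - 1) = 1 := by
    apply Nat.Coprime.pow_left j
    rw [Nat.Prime.coprime_iff_not_dvd hq.1]
    intro hd
    have h2 := hp.1.two_le
    have := Nat.le_of_dvd (by omega) hd
    omega
  have hx1 : (m : ZMod p) = 1 := by
    have := pow_gcd_eq_one.2 ⟨hx, hx2⟩
    rwa [hg, pow_one] at this
  have hm1 : m ≡ 1 [MOD p] := (ZMod.natCast_eq_natCast_iff _ _ _).1 (by simpa using hx1)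
  have hβα : β = α := by
    rw [← hm]
    conv_rhs => rw [← pow_one α]
    rw [pow_eq_pow_iff_modEq, hoα]
    exact hm1
  intro d hd
  have h5 : α * τ = τ * α := by
    rw [hβ'] at hβα
    calc α * τ = τ * α * τ⁻¹ * τ := by rw [hβα]
      _ = τ * α := by group
  have h6 := congrArg (fun f : MulAut (cz w) => ((f ⟨d, hd⟩ : cz w) : G)) h5
  simp only [MulAut.mul_apply] at h6
  rw [hαd, hτd, hφa, hφa, hφa, hφa] at h6
  exact h6

end Cfsg.H1
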