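import Mathlib
import Cfsg.Agent.H1.Ito4
import Cfsg.Agent.Lib.Helper23.ConjCover

set_option autoImplicit false

namespace Cfsg.H1

open Subgroup

variable {G : Type*} [Group G]

theorem orderOf_conj'' (g w : G) : orderOf (g * w * g⁻¹) = orderOf w := by
  have := orderOf_conj' g⁻¹ w
  simpa using this

theorem ItoB.sylow_le [Finite G] {n : ℕ} (h : ItoB G n) {w : G} (hw : w ∉ center G) {p q : ℕ}
    (hp : IsBad G p) (hq : IsBad G q) (hlt : p < q) {t : G}
    (ht : t ∈ normalizer (cz w : Set G)) (htE : t ∉ cz w) {j : ℕ} (hto : orderOf t = q ^ j)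
    [Fact p.Prime] (S : Sylow p G) (hES : primPart (cz w) (h.ab w hw) p ≤ S) :
    (S : Subgroup G) ≤ normalizer (cz w : Set G) := by
  by_contra hS
  obtain ⟨N, hN⟩ : ∃ N, N = normalizer (cz w : Set G) := ⟨_, rfl⟩
  rw [← hN] at hS ht
  obtain ⟨B, hB⟩ : ∃ B, B = (S : Subgroup G) ⊓ N := ⟨_, rfl⟩
  haveI : Group.IsNilpotent (S : Subgroup G) := S.2.isNilpotent
  have hlt' : B.subgroupOf S < ⊤ := by
    rw [lt_top_iff_ne_top, Ne, subgroupOf_eq_top]
    intro hle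
    exact hS (hle.trans (hB ▸ inf_le_right))
  obtain ⟨x, hxn, hxB⟩ := SetLike.exists_of_lt (Group.normalizerCondition_of_isNilpotent _ hlt')
  have hsB : (x : G) ∉ B := fun hx => hxB (mem_subgroupOf.2 hx)
  have hsN : (x : G) ∉ N := fun hx => hsB (hB ▸ ⟨x.2, hx⟩)
  have hBS : B ≤ S := hB ▸ inf_le_left
  have hBN : B ≤ N := hB ▸ inf_le_right
  have hconj : ∀ b ∈ B, (x : G) * b * (x : G)⁻¹ ∈ B := by
    intro b hb
    have := (Subgroup.mem_normalizer_iff.1 hxn ⟨b, hBS hb⟩).1 (mem_subgroupOf.2 hb)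
    exact mem_subgroupOf.1 this
  have hconj' : ∀ b ∈ B, (x : G)⁻¹ * b * (x : G) ∈ B := by
    intro b hb
    have := (Subgroup.mem_normalizer_iff.1 (inv_mem hxn) ⟨b, hBS hb⟩).1 (mem_subgroupOf.2 hb)
    simpa using mem_subgroupOf.1 this
  generalize (x : G) = s at hsB hsN hconj hconj'
  obtain ⟨e, heE, heZ, k, hek⟩ := h.two.exists_bad_mem hp hw
  have heP : e ∈ primPart (cz w) (h.ab w hw) p := ⟨heE, k, by rw [← hek, pow_orderOf_eq_one]⟩
  have hEN : cz w ≤ N := hN ▸ le_normalizer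
  have hPB : ∀ d ∈ primPart (cz w) (h.ab w hw) p, d ∈ B := fun d hd => hB ▸ ⟨hES hd, hEN hd.1⟩
  have hw' : s * w * s⁻¹ ∉ center G := conj_notMem_center hw s
  have hw'E : s * w * s⁻¹ ∉ cz w := fun hx => hsN (hN ▸ (h.mem_normalizer_iff hw).2 hx)
  have haN : s * e * s⁻¹ ∈ N := hBN (hconj e (hPB e heP))
  have haE' : s * e * s⁻¹ ∈ cz (s * w * s⁻¹) := (conj_mem_cz_conj s).2 heE
  have haZ : s * e * s⁻¹ ∉ center G := conj_notMem_center heZ s
  have haE : s * e * s⁻¹ ∉ cz w := fun hx => haZ (h.inf_le_center hw hw' hw'E hx haE')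
  have hao : orderOf (s * e * s⁻¹) = p ^ k := by rw [orderOf_conj'', hek]
  rw [hN] at haN ht
  have haM : ∀ d ∈ primPart (cz w) (h.ab w hw) p,
      (s * e * s⁻¹) * d * (s * e * s⁻¹)⁻¹ * d⁻¹ ∈ center G := by
    intro d hd
    have hdN' : d ∈ normalizer (cz (s * w * s⁻¹) : Set G) := by
      rw [h.mem_normalizer_iff hw']
      have h1 : s⁻¹ * d * s ∈ normalizer (cz w : Set G) := hN ▸ hBN (hconj' d (hPB d hd))
      have h2 := (h.mem_normalizer_iff hw).1 h1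
      have h3 := (conj_mem_cz_conj (w := w) s).2 h2
      convert h3 using 1
      group
    apply h.inf_le_center hw hw' hw'E
    · exact mul_mem ((Subgroup.mem_normalizer_iff.1 haN d).1 hd.1) (inv_mem hd.1)
    · have h4 : d * (s * e * s⁻¹)⁻¹ * d⁻¹ ∈ cz (s * w * s⁻¹) :=
        (Subgroup.mem_normalizer_iff.1 hdN' _).1 (inv_mem haE')
      have h5 := mul_mem haE' h4
      convert h5 using 1
      group
  exact h.trick hw hp.1 hlt.ne hq haN ht haE htE hao hto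
    (h.comm_of_M1 hw hp hq hlt haN ht haE haM hto)

theorem cz_ne_top {y : G} (hy : y ∉ center G) : cz y ≠ ⊤ := by
  intro htop
  rw [← index_eq_one, cz_index_one_iff] at htop
  exact hy htop

theorem ItoB.false [Finite G] {n : ℕ} (h : ItoB G n) {p₀ q₀ : ℕ} (hp₀ : IsBad G p₀)
    (hq₀ : IsBad G q₀) (hne : p₀ ≠ q₀) : False := by
  classical
  have hbd : ∀ r, IsBad G r → r ≤ Nat.card G := by
    rintro r ⟨hr, y, hy, j, hj⟩
    have hj0 : j ≠ 0 := by
      rintro rfl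
      rw [pow_zero, orderOf_eq_one_iff] at hj
      exact hy (hj ▸ one_mem _)
    exact Nat.le_of_dvd Nat.card_pos
      (((dvd_pow_self r hj0).trans (hj ▸ dvd_rfl)).trans (orderOf_dvd_natCard y))
  obtain ⟨q, hq, hmax⟩ : ∃ q, IsBad G q ∧ ∀ r, IsBad G r → r ≤ q := by
    have hne' : ((Finset.range (Nat.card G + 1)).filter (IsBad G)).Nonempty :=
      ⟨p₀, Finset.mem_filter.2 ⟨Finset.mem_range.2 (Nat.lt_succ_of_le (hbd _ hp₀)), hp₀⟩⟩
    obtain ⟨q, hq, hqm⟩ := Finset.exists_max_image _ id hne'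
    exact ⟨q, (Finset.mem_filter.1 hq).2, fun r hr => hqm r
      (Finset.mem_filter.2 ⟨Finset.mem_range.2 (Nat.lt_succ_of_le (hbd _ hr)), hr⟩)⟩
  obtain ⟨p, hp, hpq⟩ : ∃ p, IsBad G p ∧ p < q := by
    by_cases h1 : p₀ = q
    · exact ⟨q₀, hq₀, lt_of_le_of_ne (hmax _ hq₀) (by rw [← h1]; exact hne.symm)⟩
    · exact ⟨p₀, hp₀, lt_of_le_of_ne (hmax _ hp₀) h1⟩
  haveI : Fact q.Prime := ⟨hq.1⟩
  obtain ⟨-, y, hyZ, jy, hyo⟩ := id hq
  obtain ⟨T, hyT⟩ := IsPGroup.exists_le_sylow (p := q) (P := zpowers y)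
    (IsPGroup.of_card (n := jy) (by rw [Nat.card_zpowers, hyo]))
  obtain ⟨y₂, hy₂T, hy₂Z, hy₂c⟩ := exists_central_mod (T : Subgroup G) T T.2 le_rfl
    (fun g hg d hd => mul_mem (mul_mem hg hd) (inv_mem hg))
    (fun hle => hyZ (hle (hyT (mem_zpowers y))))
  have hTN : (T : Subgroup G) ≤ normalizer (cz y₂ : Set G) := by
    intro t ht
    rw [h.mem_normalizer_iff hy₂Z, mem_cz]
    have hz := hy₂c t ht
    have h1 : t * y₂ * t⁻¹ = (t * y₂ * t⁻¹ * y₂⁻¹) * y₂ := by group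
    rw [h1]
    generalize t * y₂ * t⁻¹ * y₂⁻¹ = z at hz
    calc z * y₂ * y₂ = (y₂ * z) * y₂ := by rw [mem_center_iff.1 hz y₂]
      _ = y₂ * (z * y₂) := by group
  have hTE : ¬ (T : Subgroup G) ≤ cz y₂ := by
    intro hle
    have hqn : ¬ q ∣ n := by
      rw [← h.two.index_eq hy₂Z]
      exact fun hd => T.not_dvd_index (hd.trans (index_dvd_of_le hle))
    obtain ⟨x, hx⟩ := Cfsg.Agent.Lib.Helper23.exists_not_mem_conj (cz y₂) (cz_ne_top hy₂Z)
    by_cases hxZ : x ∈ center G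
    · apply hx 1
      simpa using center_le_cz y₂ hxZ
    · have hcard : ¬ q ∣ Nat.card (G ⧸ cz x) := by
        have : Nat.card (G ⧸ cz x) = n := h.two.index_eq hxZ
        rwa [this]
      obtain ⟨c, hc⟩ := T.2.nonempty_fixed_point_of_prime_not_dvd_card (G ⧸ cz x) hcard
      obtain ⟨a, rfl⟩ := QuotientGroup.mk_surjective c
      have h1 := hc ⟨y₂, hy₂T⟩
      have h2 : (y₂ * a)⁻¹ * a ∈ cz x := QuotientGroup.eq.1 h1
      have h3 := (conj_mem_cz_conj (w := x) a).2 h2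
      have h4 : a * ((y₂ * a)⁻¹ * a) * a⁻¹ = y₂⁻¹ := by group
      rw [h4] at h3
      have h5 := inv_mem h3
      rw [inv_inv, mem_cz] at h5
      apply hx a⁻¹
      rw [inv_inv, mem_cz]
      exact h5.symm
  obtain ⟨t, htT, htE⟩ := SetLike.not_le_iff_exists.1 hTE
  obtain ⟨j, hto⟩ := (IsPGroup.iff_orderOf.1 T.2) ⟨t, htT⟩
  rw [Subgroup.orderOf_mk] at hto
  have hNtop : normalizer (cz y₂ : Set G) = ⊤ := by
    rw [← index_eq_one]
    by_contra hne1
    obtain ⟨r, hr, hrd⟩ := Nat.exists_prime_and_dvd hne1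
    haveI : Fact r.Prime := ⟨hr⟩
    have key : ∀ R : Sylow r G, ¬ (R : Subgroup G) ≤ normalizer (cz y₂ : Set G) :=
      fun R hle => R.not_dvd_index (hrd.trans (index_dvd_of_le hle))
    by_cases hrq : r = q
    · subst hrq
      exact key T hTN
    by_cases hrb : IsBad G r
    · obtain ⟨S, hS⟩ := IsPGroup.exists_le_sylow (primPart_isPGroup (cz y₂) (h.ab _ hy₂Z) r)
      exact key S (h.sylow_le hy₂Z hrb hq (lt_of_le_of_ne (hmax r hrb) hrq) (hTN htT) htE hto S hS)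
    · obtain ⟨R⟩ : Nonempty (Sylow r G) := inferInstance
      apply key R
      intro g hg
      have : g ∈ center G := by
        by_contra hgZ
        obtain ⟨k, hk⟩ := (IsPGroup.iff_orderOf.1 R.2) ⟨g, hg⟩
        rw [Subgroup.orderOf_mk] at hk
        exact hrb ⟨hr, g, hgZ, k, hk⟩
      exact le_normalizer (center_le_cz y₂ this)
  obtain ⟨u, huE⟩ : ∃ u, u ∉ cz y₂ := by
    by_contra hcon
    push Not at hcon
    exact cz_ne_top hy₂Z (eq_top_iff.2 fun x _ => hcon x)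
  have huZ : u ∉ center G := fun hu => huE (center_le_cz _ hu)
  obtain ⟨s, hs, hsZ, i, hso⟩ := h.two.exists_bad_mem hp huZ
  obtain ⟨t', ht', ht'Z, j', hto'⟩ := h.two.exists_bad_mem hq huZ
  have hsE : s ∉ cz y₂ := fun hx => huE (h.mem_of_comm hy₂Z hx hsZ (mem_cz.1 hs).symm)
  have ht'E : t' ∉ cz y₂ := fun hx => huE (h.mem_of_comm hy₂Z hx ht'Z (mem_cz.1 ht').symm)
  refine h.trick hy₂Z hp.1 hpq.ne hq (hNtop ▸ mem_top s) (hNtop ▸ mem_top t') hsE ht'E hso hto' ?_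
  intro d _
  have hst : s * t' = t' * s := h.ab u huZ s hs t' ht'
  calc s * (t' * d * t'⁻¹) * s⁻¹ = (s * t') * d * (s * t')⁻¹ := by group
    _ = (t' * s) * d * (t' * s)⁻¹ := by rw [hst]
    _ = _ := by group

theorem TwoCS.exists_prime [Finite G] {n : ℕ} (h : TwoCS G n) {x : G} (hx : x ∉ center G) :
    ∃ p, p.Prime ∧ ∀ g : G, (orderOf g).Coprime p → g ∈ center G := by
  obtain ⟨p, j, m, hp, hxm, ho⟩ := exists_primePow_notMem (center G) _ x rfl hx
  have hpb : IsBad G p := ⟨hp, _, hxm, j, ho⟩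
  refine ⟨p, hp, fun g hg => ?_⟩
  by_contra hgZ
  obtain ⟨r, j', m', hr, hgm, ho'⟩ := exists_primePow_notMem (center G) _ g rfl hgZ
  have hrb : IsBad G r := ⟨hr, _, hgm, j', ho'⟩
  have hrp : r ≠ p := by
    rintro rfl
    have hj0 : j' ≠ 0 := by
      rintro rfl
      rw [pow_zero, orderOf_eq_one_iff] at ho'
      exact hgm (ho' ▸ one_mem _)
    have h1 : r ∣ orderOf g := (dvd_pow_self r hj0).trans (ho' ▸ orderOf_pow_dvd m')
    exact hr.one_lt.ne' (Nat.eq_one_of_dvd_coprimes hg h1 dvd_rfl)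
  exact ItoB.false ⟨h, fun w hw => h.abelian hpb hrb hrp.symm hw⟩ hpb hrb hrp.symm

end Cfsg.H1
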