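import Mathlib
import Cfsg.Agent.H1.Kegel1
import Cfsg.Agent.H1.MinNonPNil
import Cfsg.Agent.H1.FrobCenter
import Cfsg.Agent.H1.Meta10
import Cfsg.Agent.S0033
import Cfsg.Agent.S0058

set_option autoImplicit false

/-! Kegel's theorem: the hypothesis, inheritance, and the `p`-nilpotent case. -/

namespace Cfsg.H1

open Subgroup Cfsg.Agent.H12
open scoped Pointwise

universe u

theorem exists_central_mem_of_normal {P : Type*} [Group P] [Finite P] {p : ℕ} [hp : Fact p.Prime]
    (hP : IsPGroup p P) (M : Subgroup P) [M.Normal] (hM : M ≠ ⊥) :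
    ∃ z ∈ M, z ≠ 1 ∧ z ∈ center P := by
  have hP' : IsPGroup p (ConjAct P) := hP
  have hd : p ∣ Nat.card M := by
    obtain ⟨n, hn⟩ := IsPGroup.iff_card.mp (hP.to_subgroup M)
    rw [hn]
    apply dvd_pow_self
    rintro rfl
    rw [pow_zero] at hn
    exact hM (card_eq_one.1 hn)
  obtain ⟨b, hb, hne⟩ := hP'.exists_fixed_point_of_prime_dvd_card_of_fixed_point (α := M) hd
    (a := 1) (by intro g; exact smul_one g)
  refine ⟨b, b.2, fun h => hne (Subtype.ext h.symm), ?_⟩
  rw [mem_center_iff]
  intro g
  have h1 := congrArg Subtype.val (hb (ConjAct.toConjAct g))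
  rw [ConjAct.Subgroup.val_conj_smul, ConjAct.toConjAct_smul] at h1
  calc g * (b : P) = (g * b * g⁻¹) * g := by group
    _ = b * g := by rw [h1]

theorem mem_sup_zpowers_of_commute {G : Type*} [Group G] {y u a : G} (hc : Commute y u)
    (ha : a ∈ zpowers y ⊔ zpowers u) : ∃ i j : ℤ, a = y ^ i * u ^ j := by
  rw [sup_eq_closure_mul] at ha
  induction ha using closure_induction with
  | mem x hx =>
    obtain ⟨s, ⟨i, rfl⟩, t, ⟨j, rfl⟩, rfl⟩ := hx
    exact ⟨i, j, rfl⟩
  | one => exact ⟨0, 0, by simp⟩
  | mul x x' _ _ hx hx' =>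
    obtain ⟨i, j, rfl⟩ := hx
    obtain ⟨i', j', rfl⟩ := hx'
    refine ⟨i + i', j + j', ?_⟩
    have h1 : u ^ j * y ^ i' = y ^ i' * u ^ j := ((hc.zpow_zpow i' j).symm).eq
    rw [zpow_add, zpow_add, mul_assoc, ← mul_assoc (u ^ j), h1]
    group
  | inv x _ hx =>
    obtain ⟨i, j, rfl⟩ := hx
    refine ⟨-i, -j, ?_⟩
    have h1 : u ^ (-j) * y ^ (-i) = y ^ (-i) * u ^ (-j) := ((hc.zpow_zpow (-i) (-j)).symm).eq
    rw [mul_inv_rev, ← zpow_neg, ← zpow_neg, h1]

/-- `H` is normal of index `p` and every element outside `H` has `p`-th power `1`. -/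
structure KegelHyp (p : ℕ) {G : Type*} [Group G] (H : Subgroup G) : Prop where
  normal : H.Normal
  index : H.index = p
  pow : ∀ g, g ∉ H → g ^ p = 1

namespace KegelHyp

variable {G : Type u} [Group G] {p : ℕ} {H : Subgroup G}

theorem subgroup (h : KegelHyp p H) (hp : p.Prime) (L : Subgroup G) (hL : ¬ L ≤ H) :
    KegelHyp p (H.subgroupOf L) := by
  haveI := h.normal
  refine ⟨inferInstance, ?_, ?_⟩
  · have h1 : H.relIndex L ∣ p := by
      rw [← h.index]; exact relIndex_dvd_index_of_normal H L
    rcases (Nat.dvd_prime hp).1 h1 with h2 | h2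
    · exact absurd (relIndex_eq_one.1 h2) hL
    · exact h2
  · intro g hg
    exact Subtype.ext (h.pow g hg)

theorem quotient (h : KegelHyp p H) (N : Subgroup G) [N.Normal] (hN : N ≤ H) :
    KegelHyp p (H.map (QuotientGroup.mk' N)) := by
  haveI := h.normal
  refine ⟨Normal.map inferInstance _ (QuotientGroup.mk'_surjective N), ?_, ?_⟩
  · rw [index_map_eq _ (QuotientGroup.mk'_surjective N) (by rwa [QuotientGroup.ker_mk']), h.index]
  · intro q hq
    obtain ⟨g, rfl⟩ := QuotientGroup.mk'_surjective N q
    have hg : g ∉ H := fun hg => hq ⟨g, hg, rfl⟩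
    rw [← map_pow, h.pow g hg, map_one]

theorem mem_of_coprime (h : KegelHyp p H) {g : G} (hg : (orderOf g).Coprime p) : g ∈ H := by
  by_contra hgH
  have h1 := orderOf_dvd_of_pow_eq_one (h.pow g hgH)
  have h2 : orderOf g = 1 := Nat.eq_one_of_dvd_coprimes hg (dvd_refl _) h1
  rw [orderOf_eq_one_iff] at h2
  exact hgH (h2 ▸ H.one_mem)

theorem mul_notMem {y x : G} (hy : y ∉ H) (hx : x ∈ H) : y * x ∉ H :=
  fun h2 => hy (by simpa using H.mul_mem h2 (H.inv_mem hx))

theorem pow_eq_one_of_commute (h : KegelHyp p H) {y x : G} (hy : y ∉ H) (hx : x ∈ H)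
    (hc : Commute y x) : x ^ p = 1 := by
  have h2 := h.pow _ (mul_notMem hy hx)
  rw [hc.mul_pow, h.pow y hy, one_mul] at h2
  exact h2

theorem eq_one_of_commute [Finite G] (h : KegelHyp p H) {K : Subgroup G} (hKH : K ≤ H)
    (hK : (Nat.card K).Coprime p) {y k : G} (hy : y ∉ H) (hk : k ∈ K) (hc : Commute y k) :
    k = 1 := by
  have h1 := orderOf_dvd_of_pow_eq_one (h.pow_eq_one_of_commute hy (hKH hk) hc)
  have h2 : orderOf k ∣ Nat.card K := by
    have : orderOf (⟨k, hk⟩ : K) ∣ Nat.card K := orderOf_dvd_natCard _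
    rwa [Subgroup.orderOf_mk] at this
  exact orderOf_eq_one_iff.1 (Nat.eq_one_of_dvd_coprimes hK h2 h1)

theorem ne_top (h : KegelHyp p H) (hp : p.Prime) : H ≠ ⊤ := by
  intro h1
  have := h.index
  rw [h1, index_top] at this
  exact hp.one_lt.ne this

theorem npc_of_npc [Finite G] [Fact p.Prime] (h : KegelHyp p H)
    (h1 : Cfsg.HasNormalPComplement p H) : Cfsg.HasNormalPComplement p G := by
  rw [hasNormalPComplement_iff] at h1 ⊢
  have h2 : Cfsg.pResidual p G ≤ H := by
    unfold Cfsg.pResidual
    rw [closure_le]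
    intro g hg
    exact h.mem_of_coprime hg
  rw [pResidual_eq_map_of_le H h2, card_map_of_injective H.subtype_injective]
  exact h1

/-- a normal `p'`-subgroup is nilpotent, by Thompson's theorem -/
theorem nilpotent_of_coprime [Finite G] (h : KegelHyp p H) (hp : p.Prime) (K : Subgroup G)
    [K.Normal] (hK : (Nat.card K).Coprime p) : Group.IsNilpotent K := by
  have hKH : K ≤ H := by
    intro k hk
    apply h.mem_of_coprime
    have : orderOf (⟨k, hk⟩ : K) ∣ Nat.card K := orderOf_dvd_natCard _
    rw [Subgroup.orderOf_mk] at this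
    exact Nat.Coprime.coprime_dvd_left this hK
  obtain ⟨y, hy⟩ : ∃ y, y ∉ H := by
    by_contra hcon
    push Not at hcon
    exact h.ne_top hp (eq_top_iff.2 fun g _ => hcon g)
  by_cases hKb : K = ⊥
  · subst hKb
    infer_instance
  have hfix : ∀ k : K, MulAut.conjNormal y k = k → k = 1 := by
    intro k hk
    have h1 : y * (k : G) * y⁻¹ = k := by
      have := congrArg Subtype.val hk
      rwa [MulAut.conjNormal_apply] at this
    have h2 : Commute y (k : G) := by
      have : y * (k : G) = k * y := by
        calc y * (k : G) = (y * k * y⁻¹) * y := by group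
          _ = k * y := by rw [h1]
      exact this
    exact Subtype.ext (h.eq_one_of_commute hKH hK hy k.2 h2)
  apply Cfsg.Agent.S0033.result (MulAut.conjNormal y : K ≃* K) hfix p hp
  haveI : Fact p.Prime := ⟨hp⟩
  apply orderOf_eq_prime
  · rw [← map_pow, h.pow y hy, map_one]
  · intro h1
    apply hKb
    rw [eq_bot_iff]
    intro k hk
    have := hfix ⟨k, hk⟩ (by rw [h1]; rfl)
    exact congrArg Subtype.val this

theorem nilpotent_of_npc [Finite G] [hp : Fact p.Prime] (h : KegelHyp p H)
    (ih : ∀ (S : Subgroup G) [S.Normal], S ≠ ⊥ → S ≤ H →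
      Group.IsNilpotent (H.map (QuotientGroup.mk' S)))
    (hnpc : Cfsg.HasNormalPComplement p G) : Group.IsNilpotent H := by
  obtain ⟨P, K, hKn, hc⟩ := hnpc
  haveI := h.normal
  have hKcop : (Nat.card K).Coprime p := by
    rw [← hc.index_eq_card]
    exact ((Nat.Prime.coprime_iff_not_dvd hp.out).2 P.not_dvd_index).symm
  have hordK : ∀ k ∈ K, (orderOf k).Coprime p := by
    intro k hk
    have : orderOf (⟨k, hk⟩ : K) ∣ Nat.card K := orderOf_dvd_natCard _
    rw [Subgroup.orderOf_mk] at this
    exact Nat.Coprime.coprime_dvd_left this hKcop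
  have hKH : K ≤ H := fun k hk => h.mem_of_coprime (hordK k hk)
  have hPH : ¬ (P : Subgroup G) ≤ H := by
    intro hPH
    apply h.ne_top hp.out
    rw [eq_top_iff, ← hc.sup_eq_top]
    exact sup_le hKH hPH
  obtain ⟨y, hyP, hyH⟩ := SetLike.not_le_iff_exists.1 hPH
  have hKnil : Group.IsNilpotent K := h.nilpotent_of_coprime hp.out K hKcop
  have hdec : ∀ g : G, ∃ k ∈ K, ∃ u ∈ (P : Subgroup G), g = k * u := by
    intro g
    have hg : g ∈ K ⊔ (P : Subgroup G) := by rw [hc.sup_eq_top]; exact mem_top g
    obtain ⟨k, hk, u, hu, rfl⟩ := mem_sup_of_normal_left.1 hg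
    exact ⟨k, hk, u, hu, rfl⟩
  set P0 : Subgroup G := (P : Subgroup G) ⊓ H with hP0
  have hP0p : IsPGroup p P0 := P.2.to_le inf_le_left
  have claim : ∀ u ∈ P0, ∀ k ∈ K, u * k = k * u := by
    by_cases hKb : K = ⊥
    · intro u _ k hk
      rw [hKb, mem_bot] at hk
      rw [hk, mul_one, one_mul]
    set S : Subgroup G := (P : Subgroup G) ⊓ centralizer (K : Set G) with hS
    have hSp : IsPGroup p S := P.2.to_le inf_le_left
    have hSn : S.Normal := by
      constructor
      intro s hs g
      obtain ⟨k, hk, u, hu, rfl⟩ := hdec g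
      have h1 : u * s * u⁻¹ ∈ S :=
        ⟨(P : Subgroup G).mul_mem ((P : Subgroup G).mul_mem hu hs.1) ((P : Subgroup G).inv_mem hu),
          (inferInstance : (centralizer (K : Set G)).Normal).conj_mem s hs.2 u⟩
      have h2 : k * (u * s * u⁻¹) = (u * s * u⁻¹) * k := (mem_centralizer_iff.1 h1.2 k hk)
      have h3 : k * u * s * (k * u)⁻¹ = u * s * u⁻¹ := by
        calc k * u * s * (k * u)⁻¹ = (k * (u * s * u⁻¹)) * k⁻¹ := by group
          _ = u * s * u⁻¹ := by rw [h2]; group
      rw [h3]
      exact h1
    have hSH : S ≤ H := by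
      intro s hs
      by_contra hsH
      apply hKb
      rw [eq_bot_iff]
      intro k hk
      exact h.eq_one_of_commute hKH hKcop hsH hk (mem_centralizer_iff.1 hs.2 k hk).symm
    by_cases hSb : S = ⊥
    · -- faithful action: `P0` is trivial
      have hP0b : P0 = ⊥ := by
        by_contra hP0b
        haveI : (P0.subgroupOf (P : Subgroup G)).Normal := by
          rw [hP0, inf_subgroupOf_left]
          infer_instance
        have hne : P0.subgroupOf (P : Subgroup G) ≠ ⊥ := by
          intro hb
          apply hP0b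
          rw [subgroupOf_eq_bot, disjoint_iff, inf_eq_left.2 (inf_le_left : P0 ≤ P)] at hb
          exact hb
        obtain ⟨z, hzM, hz1, hzc⟩ := exists_central_mem_of_normal P.2 _ hne
        obtain ⟨u, hu, huo⟩ := exists_orderOf_eq_prime_mem_zpowers P.2 hz1
        have huM : (u : G) ∈ P0 := (zpowers_le.2 hzM : zpowers z ≤ P0.subgroupOf P) hu
        have huc : u ∈ center (P : Subgroup G) := (zpowers_le.2 hzc : zpowers z ≤ _) hu
        have huo' : orderOf (u : G) = p := by rw [Subgroup.orderOf_coe]; exact huo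
        have hyu : Commute y (u : G) := by
          have := mem_center_iff.1 huc ⟨y, hyP⟩
          exact congrArg Subtype.val this
        set A : Subgroup G := zpowers y ⊔ zpowers (u : G) with hA
        have hAP : A ≤ P := sup_le (zpowers_le.2 hyP) (zpowers_le.2 u.2)
        haveI hAc : IsMulCommutative A := by
          refine ⟨⟨fun a b => Subtype.ext ?_⟩⟩
          obtain ⟨i, j, ha⟩ := mem_sup_zpowers_of_commute hyu a.2
          obtain ⟨i', j', hb⟩ := mem_sup_zpowers_of_commute hyu b.2
          change (a : G) * b = b * a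
          rw [ha, hb]
          have h1 : (u : G) ^ j * y ^ i' = y ^ i' * (u : G) ^ j := ((hyu.zpow_zpow i' j).symm).eq
          have h2 : (u : G) ^ j' * y ^ i = y ^ i * (u : G) ^ j' := ((hyu.zpow_zpow i j').symm).eq
          calc y ^ i * (u : G) ^ j * (y ^ i' * (u : G) ^ j')
              = y ^ i * ((u : G) ^ j * y ^ i') * (u : G) ^ j' := by group
            _ = y ^ i * (y ^ i' * (u : G) ^ j) * (u : G) ^ j' := by rw [h1]
            _ = y ^ i' * (y ^ i * (u : G) ^ j') * (u : G) ^ j := by
                rw [← mul_assoc, ← mul_assoc, ← zpow_add, ← zpow_add, add_comm, mul_assoc, mul_assoc,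
                  ← zpow_add, ← zpow_add, add_comm j]
            _ = y ^ i' * ((u : G) ^ j' * y ^ i) * (u : G) ^ j := by rw [h2]
            _ = _ := by group
        have hAnc : ¬ IsCyclic A := by
          intro hcyc
          have h1 := mem_zpowers_of_pow_eq_one_of_isCyclic
            (v := (⟨(u : G), le_sup_right (a := zpowers y) (mem_zpowers _)⟩ : A))
            (w := (⟨y, le_sup_left (a := zpowers y) (mem_zpowers _)⟩ : A)) (r := p)
            (by rw [Subgroup.orderOf_mk]; exact huo') hp.out.pos (Subtype.ext (h.pow y hyH))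
          obtain ⟨n, hn⟩ := mem_zpowers_iff.1 h1
          have h2 : (u : G) ^ n = y := congrArg Subtype.val hn
          exact hyH (h2 ▸ H.zpow_mem huM.2 n)
        have hAcop : (Nat.card A).Coprime (Nat.card K) := by
          obtain ⟨n, hn⟩ := IsPGroup.iff_card.mp (P.2.to_le hAP)
          rw [hn]
          exact (Nat.Coprime.pow_right n hKcop).symm
        have hgen := Cfsg.Agent.S0058.result A K hAnc (le_normalizer_of_normal' _ _) hAcop
        have hle : K ≤ centralizer {(u : G)} := by
          rw [← hgen]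
          apply iSup₂_le
          rintro a ⟨haA, ha1⟩ k ⟨hkK, hka⟩
          by_cases haH : a ∈ H
          · obtain ⟨i, j, rfl⟩ := mem_sup_zpowers_of_commute hyu haA
            have hyi : y ^ i ∈ H := by
              have := H.mul_mem haH (H.zpow_mem huM.2 (-j))
              rwa [mul_assoc, ← zpow_add, add_neg_cancel, zpow_zero, mul_one] at this
            have hyi1 : y ^ i = 1 := by
              by_contra hne
              -- `y ∈ ⟨y^i⟩`
              have hyo : orderOf y = p := orderOf_eq_prime (h.pow y hyH) (fun h1 => hyH (h1 ▸ H.one_mem))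
              have h1 : ¬ (p : ℤ) ∣ i := by
                intro hd
                apply hne
                rw [← hyo] at hd
                exact (orderOf_dvd_iff_zpow_eq_one).1 hd
              have h2 : IsCoprime i (p : ℤ) :=
                ((Nat.prime_iff_prime_int.1 hp.out).coprime_iff_not_dvd.2 h1).symm
              obtain ⟨a', b', hab⟩ := h2
              have h3 : y = (y ^ i) ^ a' := by
                have h4 : y = y ^ (a' * i + b' * p) := by rw [hab, zpow_one]
                rw [zpow_add, zpow_mul' y b', zpow_natCast, h.pow y hyH, one_zpow, mul_one,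
                  mul_comm, zpow_mul] at h4
                exact h4
              exact hyH (h3 ▸ H.zpow_mem hyi a')
            rw [hyi1, one_mul] at ha1 hka
            -- `u ∈ ⟨u^j⟩`
            have h1 : ¬ (p : ℤ) ∣ j := by
              intro hd
              apply ha1
              rw [← huo'] at hd
              exact (orderOf_dvd_iff_zpow_eq_one).1 hd
            have h2 : IsCoprime j (p : ℤ) :=
              ((Nat.prime_iff_prime_int.1 hp.out).coprime_iff_not_dvd.2 h1).symm
            obtain ⟨a', b', hab⟩ := h2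
            have hup : (u : G) ^ p = 1 := by
              have := pow_orderOf_eq_one (u : G)
              rwa [huo'] at this
            have h3 : (u : G) = ((u : G) ^ j) ^ a' := by
              have h4 : (u : G) = (u : G) ^ (a' * j + b' * p) := by rw [hab, zpow_one]
              rw [zpow_add, zpow_mul' (u : G) b', zpow_natCast, hup, one_zpow, mul_one,
                mul_comm, zpow_mul] at h4
              exact h4
            have hka' : k ∈ centralizer {(u : G) ^ j} := hka
            rw [mem_centralizer_singleton_iff] at hka' ⊢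
            have hcm : Commute k ((u : G) ^ j) := hka'
            rw [h3]
            exact (hcm.zpow_right a').eq
          · have hka' : k ∈ centralizer {a} := hka
            rw [mem_centralizer_singleton_iff] at hka'
            have := h.eq_one_of_commute hKH hKcop haH hkK (Commute.symm hka')
            rw [this]
            exact one_mem _
        have huS : (u : G) ∈ S := by
          refine ⟨u.2, ?_⟩
          change (u : G) ∈ centralizer (K : Set G)
          rw [mem_centralizer_iff]
          intro k hk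
          have := hle hk
          rw [mem_centralizer_singleton_iff] at this
          exact this
        rw [hSb, mem_bot] at huS
        rw [huS, orderOf_one] at huo'
        exact hp.out.one_lt.ne huo'
      intro u hu k _
      rw [hP0b, mem_bot] at hu
      rw [hu, mul_one, one_mul]
    · have hnil := ih S hSb hSH
      intro u hu k hk
      have hu' : QuotientGroup.mk' S u ∈ H.map (QuotientGroup.mk' S) := ⟨u, hu.2, rfl⟩
      have hk' : QuotientGroup.mk' S k ∈ H.map (QuotientGroup.mk' S) := ⟨k, hKH hk, rfl⟩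
      have hcop : (orderOf (⟨_, hu'⟩ : H.map (QuotientGroup.mk' S))).Coprime
          (orderOf (⟨_, hk'⟩ : H.map (QuotientGroup.mk' S))) := by
        rw [Subgroup.orderOf_mk, Subgroup.orderOf_mk]
        obtain ⟨n, hn⟩ := (IsPGroup.iff_orderOf.1 hP0p) ⟨u, hu⟩
        rw [Subgroup.orderOf_mk] at hn
        apply Nat.Coprime.coprime_dvd_left (orderOf_map_dvd _ u)
        apply Nat.Coprime.coprime_dvd_right (orderOf_map_dvd _ k)
        rw [hn]
        exact (Nat.Coprime.pow_right n (hordK k hk)).symm
      have hcm := commute_of_coprime_of_nilpotent _ _ _ hcop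
      have hcm' : QuotientGroup.mk' S u * QuotientGroup.mk' S k =
          QuotientGroup.mk' S k * QuotientGroup.mk' S u := congrArg Subtype.val hcm.eq
      have h1 : u * k * u⁻¹ * k⁻¹ ∈ S := by
        rw [← QuotientGroup.eq_one_iff]
        change QuotientGroup.mk' S (u * k * u⁻¹ * k⁻¹) = 1
        rw [map_mul, map_mul, map_mul, hcm', map_inv, map_inv]
        group
      have h2 : u * k * u⁻¹ * k⁻¹ ∈ K := K.mul_mem (hKn.conj_mem k hk u) (K.inv_mem hk)
      have h3 : u * k * u⁻¹ * k⁻¹ ∈ S ⊓ K := ⟨h1, h2⟩
      rw [inf_eq_bot_of_pGroup_of_coprime hSp hKcop, mem_bot] at h3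
      calc u * k = (u * k * u⁻¹ * k⁻¹) * (k * u) := by group
        _ = k * u := by rw [h3, one_mul]
  apply isNilpotent_of_commuting H P0 K hP0p.isNilpotent hKnil inf_le_right hKH claim
  intro x hx
  obtain ⟨k, hk, u, hu, rfl⟩ := hdec x
  have huH : u ∈ H := by
    have := H.mul_mem (H.inv_mem (hKH hk)) hx
    rwa [← mul_assoc, inv_mul_cancel, one_mul] at this
  exact ⟨u, ⟨hu, huH⟩, k, hk, (claim u ⟨hu, huH⟩ k hk).symm⟩

end KegelHyp

end Cfsg.H1
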