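import Mathlib
import Cfsg.Agent.H1.Kegel2
import Cfsg.Agent.Lib.Helper13.PStab4

set_option autoImplicit false

/-! Kegel's theorem: a finite group with a splitting automorphism of prime order is nilpotent. -/

namespace Cfsg.H1

open Subgroup Cfsg.Agent.H12 Cfsg.Agent.Lib.Helper13
open scoped Pointwise IsMulCommutative

universe u

namespace KegelHyp

variable {G : Type u} [Group G] {p : ℕ} {H : Subgroup G}

/-- the case `p = 2` -/
theorem nilpotent_two (h : KegelHyp 2 H) : Group.IsNilpotent H := by
  obtain ⟨y, hy⟩ : ∃ y, y ∉ H := by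
    by_contra hcon
    push Not at hcon
    exact h.ne_top Nat.prime_two (eq_top_iff.2 fun g _ => hcon g)
  have hy2 : y * y = 1 := by rw [← sq]; exact h.pow y hy
  have hinv : ∀ x ∈ H, y * x * y = x⁻¹ := by
    intro x hx
    have h1 := h.pow _ (mul_notMem hy hx)
    rw [sq] at h1
    calc y * x * y = (y * x * (y * x)) * x⁻¹ := by group
      _ = x⁻¹ := by rw [h1, one_mul]
  haveI : IsMulCommutative H := by
    refine ⟨⟨fun a b => Subtype.ext ?_⟩⟩
    change (a : G) * b = b * a
    have h1 := hinv _ (H.mul_mem a.2 b.2)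
    have h2 : y * ((a : G) * b) * y = (y * a * y) * (y * b * y) := by
      calc y * ((a : G) * b) * y = y * a * 1 * b * y := by group
        _ = y * a * (y * y) * b * y := by rw [hy2]
        _ = _ := by group
    rw [h2, hinv _ a.2, hinv _ b.2, ← mul_inv_rev] at h1
    exact (inv_injective h1).symm
  infer_instance

/-- if an abelian normal `p`-subgroup `Z ≤ H` has `G ⧸ Z` `p`-nilpotent then `G` is `p`-nilpotent. -/
theorem npc_of_quotient [Finite G] [hp : Fact p.Prime] (h : KegelHyp p H) (Z : Subgroup G)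
    [Z.Normal] [IsMulCommutative Z] (hZH : Z ≤ H) (hZp : IsPGroup p Z)
    (hq : Cfsg.HasNormalPComplement p (G ⧸ Z)) : Cfsg.HasNormalPComplement p G := by
  have hΓ := h.quotient Z hZH
  set Kb : Subgroup (G ⧸ Z) := Cfsg.pResidual p (G ⧸ Z) with hKb
  have hKcop : (Nat.card Kb).Coprime p := hasNormalPComplement_iff.1 hq
  haveI : Kb.Characteristic := pResidual_characteristic p (G ⧸ Z)
  have hKH : Kb ≤ H.map (QuotientGroup.mk' Z) := by
    rw [hKb]
    unfold Cfsg.pResidual
    rw [closure_le]
    intro g hg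
    exact hΓ.mem_of_coprime hg
  let f : (G ⧸ Z) →* MulAut Z := QuotientGroup.lift Z (MulAut.conjNormal : G →* MulAut Z) (by
    intro z hz
    ext v
    rw [MulAut.conjNormal_apply]
    have h1 : z * (v : G) = v * z :=
      congrArg Subtype.val (mul_comm (⟨z, hz⟩ : Z) v)
    rw [h1]
    simp)
  letI : MulDistribMulAction (G ⧸ Z) Z := MulDistribMulAction.compHom Z f
  have hsmul : ∀ (g : G) (v : Z), ((QuotientGroup.mk' Z g : G ⧸ Z) • v : Z) = MulAut.conjNormal g v :=
    fun g v => rfl
  obtain ⟨yb, hyb⟩ : ∃ y, y ∉ H.map (QuotientGroup.mk' Z) := by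
    by_contra hcon
    push Not at hcon
    exact hΓ.ne_top hp.out (eq_top_iff.2 fun g _ => hcon g)
  have htriv : ∀ k ∈ Kb, ∀ v : Z, k • v = v := by
    apply trace_trivial Kb yb (le_normalizer_of_normal' _ _ (mem_top yb)) p hp.out
    · intro k hk
      exact hΓ.pow _ (mul_notMem hyb (hKH hk))
    · intro k hk v
      have hne := mul_notMem hyb (hKH hk)
      obtain ⟨g, hg⟩ := QuotientGroup.mk'_surjective Z (yb * k)
      rw [← hg] at hne ⊢
      have hgH : g ∉ H := fun hgH => hne ⟨g, hgH, rfl⟩
      have hvg : (v : G) * g ∉ H := by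
        intro h1
        apply hgH
        have := H.mul_mem (H.inv_mem (hZH v.2)) h1
        rwa [← mul_assoc, inv_mul_cancel, one_mul] at this
      have h1 := mul_pow_eq_prod_conj Z g v p
      rw [h.pow _ hvg, h.pow _ hgH, mul_one] at h1
      have h2 : ∀ i : ℕ, (QuotientGroup.mk' Z g) ^ i • v = MulAut.conjNormal (g ^ i) v := by
        intro i
        rw [← map_pow, hsmul]
      simp only [h2]
      exact Subtype.ext h1.symm
    · obtain ⟨n, hn⟩ := IsPGroup.iff_card.mp hZp
      rw [hn]
      exact Nat.Coprime.pow_right n hKcop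
  apply frob_of_all
  intro Q hQ g hg hgo
  have hgo' : (orderOf (QuotientGroup.mk' Z g)).Coprime p :=
    Nat.Coprime.coprime_dvd_left (orderOf_map_dvd _ g) hgo
  have hgZ : ∀ v ∈ Z, g * v * g⁻¹ = v := by
    intro v hv
    have h1 := htriv _ (mem_pResidual hgo') ⟨v, hv⟩
    rw [hsmul] at h1
    have h2 := congrArg Subtype.val h1
    rwa [MulAut.conjNormal_apply] at h2
  have hcen := centralizes_of_hasNPC hq (Q.map (QuotientGroup.mk' Z)) (hQ.map _)
    (QuotientGroup.mk' Z g) (le_normalizer_map _ ⟨g, hg, rfl⟩) hgo'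
  rw [mem_centralizer_iff]
  intro q hq'
  have h1 : QuotientGroup.mk' Z q * QuotientGroup.mk' Z g =
      QuotientGroup.mk' Z g * QuotientGroup.mk' Z q :=
    mem_centralizer_iff.1 hcen _ ⟨q, hq', rfl⟩
  set z := q⁻¹ * (g * q * g⁻¹) with hz
  have hzZ : z ∈ Z := by
    rw [← QuotientGroup.eq_one_iff]
    change QuotientGroup.mk' Z z = 1
    rw [hz, map_mul, map_mul, map_mul, ← h1, map_inv, map_inv]
    group
  have h2 : ∀ n : ℕ, g ^ n * q * (g ^ n)⁻¹ = q * z ^ n := by
    intro n
    induction n with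
    | zero => simp
    | succ n ih =>
      have h3 : g * z ^ n * g⁻¹ = z ^ n := hgZ _ (Z.pow_mem hzZ n)
      calc g ^ (n + 1) * q * (g ^ (n + 1))⁻¹ = g * (g ^ n * q * (g ^ n)⁻¹) * g⁻¹ := by
            rw [pow_succ']; group
        _ = g * (q * z ^ n) * g⁻¹ := by rw [ih]
        _ = (g * q * g⁻¹) * (g * z ^ n * g⁻¹) := by group
        _ = (q * z) * z ^ n := by rw [h3, hz]; group
        _ = q * z ^ (n + 1) := by rw [pow_succ']; group
  have h3 := h2 (orderOf g)
  rw [pow_orderOf_eq_one, one_mul, inv_one, mul_one] at h3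
  have h4 : z ^ orderOf g = 1 := by
    have := mul_left_cancel (a := q) (b := 1) (c := z ^ orderOf g) (by rw [mul_one]; exact h3)
    exact this.symm
  obtain ⟨n, hn⟩ := (IsPGroup.iff_orderOf.1 hZp) ⟨z, hzZ⟩
  rw [Subgroup.orderOf_mk] at hn
  have h5 : orderOf z = 1 :=
    Nat.eq_one_of_dvd_coprimes (hgo.pow_right n) (orderOf_dvd_of_pow_eq_one h4) (by rw [hn])
  have h6 : z = 1 := orderOf_eq_one_iff.1 h5
  rw [hz] at h6
  have h7 : g * q * g⁻¹ = q := by
    have := congrArg (q * ·) h6
    simpa using this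
  calc q * g = (g * q * g⁻¹) * g := by rw [h7]
    _ = g * q := by group

end KegelHyp

theorem kegel_aux (p : ℕ) [hp : Fact p.Prime] (n : ℕ) :
    ∀ (G : Type u) [Group G] [Finite G], Nat.card G = n →
      ∀ H : Subgroup G, KegelHyp p H → Group.IsNilpotent H := by
  induction n using Nat.strong_induction_on with
  | _ n IH =>
  intro G _ _ hn H h
  haveI := h.normal
  have ihq : ∀ (S : Subgroup G) [S.Normal], S ≠ ⊥ → S ≤ H →
      Group.IsNilpotent (H.map (QuotientGroup.mk' S)) := by
    intro S _ hS hSH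
    exact IH (Nat.card (G ⧸ S)) (by rw [← hn]; exact card_quotient_lt hS) (G ⧸ S) rfl _
      (h.quotient S hSH)
  have ihs : ∀ L : Subgroup G, L ≠ ⊤ → ¬ L ≤ H → Group.IsNilpotent (H.subgroupOf L) := by
    intro L hL hLH
    exact IH (Nat.card L) (by rw [← hn]; exact card_lt_of_ne_top hL) L rfl _
      (h.subgroup hp.out L hLH)
  by_cases hp2 : p = 2
  · subst hp2
    exact h.nilpotent_two
  apply h.nilpotent_of_npc ihq
  obtain ⟨P⟩ : Nonempty (Sylow p G) := inferInstance
  set W : Subgroup G := zAb 0 (P : Subgroup G) with hW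
  have hPN : (P : Subgroup G) ≤ normalizer (W : Set G) :=
    le_normalizer.trans (normalizer_le_normalizer_zAb _)
  have hPH : ¬ (P : Subgroup G) ≤ H := by
    intro hle
    have h1 := index_dvd_of_le hle
    rw [h.index] at h1
    exact P.not_dvd_index h1
  by_cases hN : normalizer (W : Set G) = ⊤
  · haveI hWn : W.Normal := normalizer_eq_top_iff.1 hN
    have hWP : W ≤ P := zAb_le _
    set Z : Subgroup G := W ⊓ H with hZ
    have hZp : IsPGroup p Z := P.2.to_le (inf_le_left.trans hWP)
    haveI : IsMulCommutative Z :=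
      ⟨⟨fun a b => Subtype.ext ((zAb_abExp (e := 0) (P : Subgroup G)).1 a a.2.1 b b.2.1)⟩⟩
    by_cases hZb : Z = ⊥
    · have hcop : (Nat.card H).Coprime p := by
        rw [coprime_card_iff]
        intro x hx hxo
        have hxp : IsPGroup p (zpowers x) := by
          apply IsPGroup.of_card (n := 1)
          rw [Nat.card_zpowers, hxo, pow_one]
        obtain ⟨Q, hQ⟩ := hxp.exists_le_sylow
        obtain ⟨g, hg⟩ := MulAction.exists_smul_eq G Q P
        have hgx : g * x * g⁻¹ ∈ (P : Subgroup G) := by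
          rw [← hg, Sylow.coe_subgroup_smul]
          exact ⟨x, hQ (mem_zpowers x), rfl⟩
        have hgxH : g * x * g⁻¹ ∈ H := h.normal.conj_mem x hx g
        have hP0 : (P : Subgroup G) ⊓ H ≠ ⊥ := by
          intro hb
          have h1 : g * x * g⁻¹ ∈ (P : Subgroup G) ⊓ H := ⟨hgx, hgxH⟩
          rw [hb, mem_bot] at h1
          have h2 : x = 1 := by
            have := congrArg (fun t => g⁻¹ * t * g) h1
            simpa [mul_assoc] using this
          rw [h2, orderOf_one] at hxo
          exact hp.out.one_lt.ne hxo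
        haveI : (((P : Subgroup G) ⊓ H).subgroupOf (P : Subgroup G)).Normal := by
          rw [inf_subgroupOf_left]
          infer_instance
        have hne : ((P : Subgroup G) ⊓ H).subgroupOf (P : Subgroup G) ≠ ⊥ := by
          intro hb
          apply hP0
          rw [subgroupOf_eq_bot, disjoint_iff,
            inf_eq_left.2 (inf_le_left : (P : Subgroup G) ⊓ H ≤ P)] at hb
          exact hb
        obtain ⟨z, hzM, hz1, hzc⟩ := exists_central_mem_of_normal P.2 _ hne
        have hzW : (z : G) ∈ W := by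
          apply (mem_sInf).mpr
          intro A hA
          apply mem_of_mem_maxAb hA z.2 _ (pow_zero _)
          rw [mem_centralizer_iff]
          intro a ha
          exact congrArg Subtype.val (mem_center_iff.1 hzc ⟨a, hA.1 ha⟩)
        have hzZ : (z : G) ∈ Z := ⟨hzW, (mem_subgroupOf.1 hzM).2⟩
        rw [hZb, mem_bot] at hzZ
        exact hz1 (Subtype.ext hzZ)
      apply hasNormalPComplement_of h.normal hcop
      apply IsPGroup.of_card (n := 1)
      rw [pow_one, ← h.index]
      rfl
    · have h1 := ihq Z hZb inf_le_right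
      exact h.npc_of_quotient Z inf_le_right hZp
        ((h.quotient Z inf_le_right).npc_of_npc hasNPC_of_nilpotent)
  · apply npc_of_zAb hp2 (Or.inl rfl) P
    have hLH : ¬ normalizer (W : Set G) ≤ H := fun hle => hPH (hPN.trans hle)
    have h1 := ihs _ hN hLH
    exact (h.subgroup hp.out _ hLH).npc_of_npc hasNPC_of_nilpotent

/-- **Kegel.** If `H` is normal of prime index `p` in the finite group `G` and every element outside
`H` has `p`-th power `1`, then `H` is nilpotent. -/
theorem kegel_internal {G : Type u} [Group G] [Finite G] {p : ℕ} (hp : p.Prime) (H : Subgroup G)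
    [hH : H.Normal] (hidx : H.index = p) (hpow : ∀ g, g ∉ H → g ^ p = 1) : Group.IsNilpotent H := by
  haveI : Fact p.Prime := ⟨hp⟩
  exact kegel_aux p _ G rfl H ⟨hH, hidx, hpow⟩

end Cfsg.H1
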