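import Mathlib
import Cfsg.Agent.H1.Kegel3

set_option autoImplicit false

/-! Kegel's theorem in automorphism form. -/

namespace Cfsg.H1

open Subgroup

universe u

theorem kegel_splitting {G : Type u} [Group G] [Finite G] (α : MulAut G) (hp : (orderOf α).Prime)
    (hsplit : ∀ x : G, (((List.range (orderOf α)).map (fun i : ℕ => (α ^ i) x)).prod = 1)) :
    Group.IsNilpotent G := by
  set p := orderOf α with hpdef
  let φ : zpowers α →* MulAut G := (zpowers α).subtype
  let Γ := G ⋊[φ] (zpowers α)
  haveI : Finite (zpowers α) :=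
    (Nat.card_pos_iff.1 (by rw [Nat.card_zpowers]; exact hp.pos)).2
  haveI : Finite Γ := Finite.of_equiv _ (SemidirectProduct.equivProd).symm
  let t : Γ := SemidirectProduct.inr ⟨α, mem_zpowers α⟩
  have hform : ∀ (x : G) (n : ℕ), (SemidirectProduct.inl x * t : Γ) ^ n =
      SemidirectProduct.inl (((List.range n).map (fun i : ℕ => (α ^ i) x)).prod) * t ^ n := by
    intro x n
    induction n with
    | zero => simp
    | succ n ih =>
      rw [pow_succ, ih, List.range_succ, List.map_append, List.prod_append]
      simp only [List.map_cons, List.map_nil, List.prod_cons, List.prod_nil, mul_one, map_mul]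
      have h1 : t ^ n * SemidirectProduct.inl x = (SemidirectProduct.inl ((α ^ n) x) : Γ) * t ^ n := by
        have h2 : t ^ n = (SemidirectProduct.inr (⟨α, mem_zpowers α⟩ ^ n) : Γ) := by
          rw [map_pow]
        rw [h2]
        have h3 := SemidirectProduct.inl_aut (φ := φ) (⟨α, mem_zpowers α⟩ ^ n : zpowers α) x
        have h4 : φ (⟨α, mem_zpowers α⟩ ^ n : zpowers α) = α ^ n := rfl
        rw [h4] at h3
        rw [h3, map_inv, inv_mul_cancel_right]
      calc _ = SemidirectProduct.inl (((List.range n).map (fun i : ℕ => (α ^ i) x)).prod) *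
            (t ^ n * SemidirectProduct.inl x) * t := by group
        _ = _ := by rw [h1, pow_succ]; group
  have htp : t ^ p = 1 := by
    have : (⟨α, mem_zpowers α⟩ : zpowers α) ^ p = 1 := Subtype.ext (pow_orderOf_eq_one α)
    change (SemidirectProduct.inr (⟨α, mem_zpowers α⟩ : zpowers α) : Γ) ^ p = 1
    rw [← map_pow, this, map_one]
  have hT1 : ∀ x : G, (SemidirectProduct.inl x * t : Γ) ^ p = 1 := by
    intro x
    rw [hform, hsplit x, htp, map_one, one_mul]
  let H : Subgroup Γ := (SemidirectProduct.rightHom : Γ →* zpowers α).ker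
  have hidx : H.index = p := by
    rw [index_ker, MonoidHom.range_eq_top.2 SemidirectProduct.rightHom_surjective, card_top,
      Nat.card_zpowers]
  have hpow : ∀ γ : Γ, γ ∉ H → γ ^ p = 1 := by
    intro γ hγ
    have hr : γ.right ≠ 1 := hγ
    obtain ⟨j, hj⟩ : ∃ j : ℕ, α ^ j = (γ.right : MulAut G) := by
      have h1 : (γ.right : MulAut G) ∈ Submonoid.powers α :=
        (isOfFinOrder_iff_pow_eq_one.2 ⟨p, hp.pos, pow_orderOf_eq_one α⟩).mem_powers_iff_mem_zpowers.2
          γ.right.2
      exact Submonoid.mem_powers_iff _ _ |>.1 h1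
    have hjp : j.Coprime p := by
      apply Nat.Coprime.symm
      rw [Nat.Prime.coprime_iff_not_dvd hp]
      intro hd
      apply hr
      apply Subtype.ext
      rw [← hj]
      exact orderOf_dvd_iff_pow_eq_one.1 hd
    let F : G → G := fun x => ((SemidirectProduct.inl x * t : Γ) ^ j).left
    have hright : ∀ x : G, ((SemidirectProduct.inl x * t : Γ) ^ j).right = γ.right := by
      intro x
      have h1 : ((SemidirectProduct.inl x * t : Γ) ^ j).right =
          (SemidirectProduct.rightHom (SemidirectProduct.inl x * t : Γ)) ^ j := by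
        rw [← map_pow]; rfl
      rw [h1, map_mul, SemidirectProduct.rightHom_inl, one_mul, SemidirectProduct.rightHom_inr]
      exact Subtype.ext hj
    have hF : Function.Injective F := by
      intro x x' hxx
      have h1 : (SemidirectProduct.inl x * t : Γ) ^ j = (SemidirectProduct.inl x' * t : Γ) ^ j :=
        SemidirectProduct.ext hxx (by rw [hright, hright])
      have h2 := eq_of_pow_eq_of_coprime hjp (hT1 x) (hT1 x') h1
      exact SemidirectProduct.inl_injective (mul_right_cancel h2)
    obtain ⟨x, hx⟩ := (Finite.injective_iff_surjective.1 hF) γ.left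
    have h1 : γ = (SemidirectProduct.inl x * t : Γ) ^ j :=
      SemidirectProduct.ext hx.symm (hright x).symm
    rw [h1, ← pow_mul, mul_comm, pow_mul, hT1, one_pow]
  have hnil : Group.IsNilpotent H := kegel_internal hp H hidx hpow
  have hHr : H = (SemidirectProduct.inl : G →* Γ).range :=
    (SemidirectProduct.range_inl_eq_ker_rightHom).symm
  rw [hHr] at hnil
  exact Group.nilpotent_of_mulEquiv
    (MonoidHom.ofInjective (SemidirectProduct.inl_injective (φ := φ))).symm

end Cfsg.H1
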