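import Mathlib
import Cfsg.Agent.H1.Small3

set_option autoImplicit false

namespace Cfsg.H1

open Subgroup
open scoped commutatorElement

/-- counting lemma: an injective-on-cosets map missing the trivial coset. -/
theorem relIndex_lt_of_map {G : Type*} [Group G] [Finite G] (C A D : Subgroup G) (f : G → G)
    (hf : ∀ c ∈ C, f c ∈ A)
    (hinj : ∀ c ∈ C, ∀ c' ∈ C, (f c)⁻¹ * f c' ∈ D → c⁻¹ * c' ∈ D)
    (hmiss : ∀ c ∈ C, f c ∉ D) : D.relIndex C < D.relIndex A := by
  classical
  unfold Subgroup.relIndex Subgroup.index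
  let φ : (↥C ⧸ D.subgroupOf C) → (↥A ⧸ D.subgroupOf A) := fun q =>
    QuotientGroup.mk (⟨f (q.out : G), hf _ q.out.2⟩ : ↥A)
  have hφ : Function.Injective φ := by
    intro q q' h
    have h1 := QuotientGroup.eq.mp h
    rw [Subgroup.mem_subgroupOf] at h1
    have h2 := hinj _ q.out.2 _ q'.out.2 (by simpa using h1)
    have h3 : (QuotientGroup.mk q.out : ↥C ⧸ D.subgroupOf C) = QuotientGroup.mk q'.out := by
      rw [QuotientGroup.eq, Subgroup.mem_subgroupOf]
      simpa using h2
    simpa using h3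
  have hm : (QuotientGroup.mk (1 : ↥A) : ↥A ⧸ D.subgroupOf A) ∉ Set.range φ := by
    rintro ⟨q, hq⟩
    have h1 := QuotientGroup.eq.mp hq
    rw [Subgroup.mem_subgroupOf] at h1
    apply hmiss _ q.out.2
    have : (f (q.out : G))⁻¹ ∈ D := by simpa using h1
    simpa using D.inv_mem this
  haveI : Fintype (↥C ⧸ D.subgroupOf C) := Fintype.ofFinite _
  haveI : Fintype (↥A ⧸ D.subgroupOf A) := Fintype.ofFinite _
  rw [Nat.card_eq_fintype_card, Nat.card_eq_fintype_card]
  exact Fintype.card_lt_of_injective_of_notMem φ hφ hm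

/-- Mann's lemma: commutators of an abelian normal subgroup with an element `x` have
smaller classes than `x`. -/
theorem index_centralizer_comm_lt {G : Type*} [Group G] [Finite G] (A : Subgroup G) [A.Normal]
    (hA : ∀ a ∈ A, ∀ b ∈ A, a * b = b * a) (x a : G) (ha : a ∈ A)
    (hne : a * x * a⁻¹ * x⁻¹ ≠ 1) :
    (centralizer ({a * x * a⁻¹ * x⁻¹} : Set G)).index < (centralizer ({x} : Set G)).index := by
  set y := a * x * a⁻¹ * x⁻¹ with hy
  set C := centralizer ({x} : Set G) with hC
  set Y := centralizer ({y} : Set G) with hY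
  set D := C ⊓ Y with hD
  have hyA : y ∈ A := by
    have : x * a⁻¹ * x⁻¹ ∈ A := Subgroup.Normal.conj_mem inferInstance _ (A.inv_mem ha) x
    have h2 := A.mul_mem ha this
    have : y = a * (x * a⁻¹ * x⁻¹) := by rw [hy]; group
    rw [this]; exact h2
  have hAY : A ≤ Y := by
    intro b hb
    rw [hY, mem_centralizer_singleton_iff]
    exact hA b hb y hyA
  have hconj : ∀ c ∈ C, c * y * c⁻¹ = (c * a * c⁻¹) * x * (c * a * c⁻¹)⁻¹ * x⁻¹ := by
    intro c hc
    rw [hC, mem_centralizer_singleton_iff] at hc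
    have h1 : c⁻¹ * x = x * c⁻¹ := by
      calc c⁻¹ * x = c⁻¹ * (x * c) * c⁻¹ := by group
        _ = c⁻¹ * (c * x) * c⁻¹ := by rw [hc]
        _ = x * c⁻¹ := by group
    have h2 : c⁻¹ * x⁻¹ = x⁻¹ * c⁻¹ := by
      calc c⁻¹ * x⁻¹ = x⁻¹ * (x * c⁻¹) * x⁻¹ := by group
        _ = x⁻¹ * (c⁻¹ * x) * x⁻¹ := by rw [h1]
        _ = x⁻¹ * c⁻¹ := by group
    calc c * y * c⁻¹ = c * a * x * a⁻¹ * (x⁻¹ * c⁻¹) := by rw [hy]; group
      _ = c * a * x * a⁻¹ * (c⁻¹ * x⁻¹) := by rw [h2]
      _ = c * a * (x * c⁻¹) * c * a⁻¹ * c⁻¹ * x⁻¹ := by group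
      _ = c * a * (c⁻¹ * x) * c * a⁻¹ * c⁻¹ * x⁻¹ := by rw [h1]
      _ = _ := by group
  have h1 : D.relIndex C < D.relIndex A := by
    apply relIndex_lt_of_map C A D (fun c => c * a * c⁻¹)
    · intro c _
      exact Subgroup.Normal.conj_mem inferInstance _ ha c
    · intro c hc c' hc' h
      refine ⟨C.mul_mem (C.inv_mem hc) hc', ?_⟩
      have hx : (c * a * c⁻¹)⁻¹ * (c' * a * c'⁻¹) ∈ C := h.1
      rw [hC, mem_centralizer_singleton_iff] at hx
      have e : c * y * c⁻¹ = c' * y * c'⁻¹ := by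
        rw [hconj c hc, hconj c' hc']
        set u := c * a * c⁻¹
        set u' := c' * a * c'⁻¹
        have : u' * x * u'⁻¹ = u * x * u⁻¹ := by
          calc u' * x * u'⁻¹ = u * (u⁻¹ * u' * x) * u'⁻¹ := by group
            _ = u * (x * (u⁻¹ * u')) * u'⁻¹ := by rw [hx]
            _ = u * x * u⁻¹ := by group
        rw [this]
      show c⁻¹ * c' ∈ Y
      rw [hY, mem_centralizer_singleton_iff]
      calc c⁻¹ * c' * y = c⁻¹ * (c' * y * c'⁻¹) * c' := by group
        _ = c⁻¹ * (c * y * c⁻¹) * c' := by rw [e]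
        _ = y * (c⁻¹ * c') := by group
    · intro c hc h
      have hx : c * a * c⁻¹ ∈ C := h.1
      have ha' : a ∈ C := by
        have := C.mul_mem (C.mul_mem (C.inv_mem hc) hx) hc
        have e : c⁻¹ * (c * a * c⁻¹) * c = a := by group
        rwa [e] at this
      rw [hC, mem_centralizer_singleton_iff] at ha'
      apply hne
      rw [hy, ha']; group
  have h2 : D.relIndex A ≤ D.relIndex Y :=
    Subgroup.relIndex_le_of_le_right hAY (by
      unfold Subgroup.relIndex; exact Subgroup.index_ne_zero_of_finite)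
  have h3 : D.relIndex C < D.relIndex Y := lt_of_lt_of_le h1 h2
  have hDC : D ≤ C := inf_le_left
  have hDY : D ≤ Y := inf_le_right
  have e1 : D.relIndex C * C.index = D.index := Subgroup.relIndex_mul_index hDC
  have e2 : D.relIndex Y * Y.index = D.index := Subgroup.relIndex_mul_index hDY
  by_contra hcon
  push Not at hcon
  have hpos : 0 < C.index := Nat.pos_of_ne_zero Subgroup.index_ne_zero_of_finite
  have : D.relIndex C * C.index < D.relIndex Y * Y.index :=
    calc D.relIndex C * C.index < D.relIndex Y * C.index := Nat.mul_lt_mul_of_pos_right h3 hpos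
      _ ≤ D.relIndex Y * Y.index := Nat.mul_le_mul_left _ hcon
  omega

/-- Isaacs' form of Mann's theorem, elementwise. -/
theorem small_class_core {G : Type*} [Group G] [Finite G] (A : Subgroup G) [A.Normal]
    (hA : ∀ a ∈ A, ∀ b ∈ A, a * b = b * a) (hCA : centralizer (A : Set G) = A) (S : Set G)
    (hS : ∀ x ∈ S, ∀ y : G, (centralizer ({y} : Set G)).index < (centralizer ({x} : Set G)).index →
      y ∈ center G) :
    ∀ x ∈ closure S, ∀ y ∈ closure S, ∀ z ∈ closure S, ⁅⁅x, y⁆, z⁆ ∈ center G := by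
  have h1 : ∀ g ∈ closure S, ∀ a ∈ A, ⁅a, g⁆ ∈ center G := by
    intro g hg
    induction hg using Subgroup.closure_induction with
    | mem x hx =>
      intro a ha
      rw [commutatorElement_def]
      by_cases h : a * x * a⁻¹ * x⁻¹ = 1
      · rw [h]; exact one_mem _
      · exact hS x hx _ (index_centralizer_comm_lt A hA x a ha h)
    | one =>
      intro a _
      rw [commutatorElement_def]
      simp
    | mul g h _ _ ihg ihh =>
      intro a ha
      have e : ⁅a, g * h⁆ = ⁅a, g⁆ * (g * ⁅a, h⁆ * g⁻¹) := by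
        simp only [commutatorElement_def]; group
      rw [e]
      exact mul_mem (ihg a ha) (Subgroup.Normal.conj_mem inferInstance _ (ihh a ha) g)
    | inv g _ ih =>
      intro a ha
      have e : ⁅a, g⁻¹⁆ = g⁻¹ * (⁅a, g⁆)⁻¹ * g⁻¹⁻¹ := by
        simp only [commutatorElement_def]; group
      rw [e]
      exact Subgroup.Normal.conj_mem inferInstance _ (inv_mem (ih a ha)) g⁻¹
  set M := closure S with hM
  have hAM : ⁅A, M⁆ ≤ center G := by
    rw [Subgroup.commutator_le]
    intro a ha g hg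
    exact h1 g hg a ha
  have hb : ⁅⁅A, M⁆, M⁆ = ⊥ := by
    rw [Subgroup.commutator_eq_bot_iff_le_centralizer]
    exact hAM.trans (Subgroup.center_le_centralizer _)
  have hb' : ⁅⁅M, A⁆, M⁆ = ⊥ := by rw [Subgroup.commutator_comm M A]; exact hb
  have hc : ⁅⁅M, M⁆, A⁆ = ⊥ := Subgroup.commutator_commutator_eq_bot_of_rotate hb' hb
  rw [Subgroup.commutator_eq_bot_iff_le_centralizer, hCA] at hc
  intro x hx y hy z hz
  exact h1 z hz _ (hc (Subgroup.commutator_mem_commutator hx hy))

theorem ucs_three_eq_top {M : Type*} [Group M]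
    (h : ∀ x y z : M, ⁅⁅x, y⁆, z⁆ ∈ center M) : Subgroup.upperCentralSeries M 3 = ⊤ := by
  rw [eq_top_iff]
  intro x _
  rw [Subgroup.mem_upperCentralSeries_succ_iff]
  intro y
  rw [Subgroup.mem_upperCentralSeries_succ_iff]
  intro z
  rw [Subgroup.upperCentralSeries_one]
  exact h x y z

theorem ucs_three_closure {G : Type*} [Group G] [Finite G] (A : Subgroup G) [A.Normal]
    (hA : ∀ a ∈ A, ∀ b ∈ A, a * b = b * a) (hCA : centralizer (A : Set G) = A) (S : Set G)
    (hS : ∀ x ∈ S, ∀ y : G, (centralizer ({y} : Set G)).index < (centralizer ({x} : Set G)).index →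
      y ∈ center G) :
    Subgroup.upperCentralSeries ↥(closure S) 3 = ⊤ := by
  apply ucs_three_eq_top
  intro x y z
  have := small_class_core A hA hCA S hS x x.2 y y.2 z z.2
  rw [Subgroup.mem_center_iff] at this ⊢
  intro g
  apply Subtype.ext
  have e := this g
  simp only [commutatorElement_def] at e ⊢
  simpa using e

theorem mem_center_of_index_one {G : Type*} [Group G] {y : G}
    (h : (centralizer ({y} : Set G)).index = 1) : y ∈ center G := by
  rw [Subgroup.index_eq_one] at h
  rw [Subgroup.mem_center_iff]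
  intro g
  have : g ∈ centralizer ({y} : Set G) := by rw [h]; trivial
  rw [mem_centralizer_singleton_iff] at this
  exact this

theorem exists_self_centralizing {G : Type*} [Group G] [Finite G] [Group.IsNilpotent G] :
    ∃ A : Subgroup G, A.Normal ∧ (∀ a ∈ A, ∀ b ∈ A, a * b = b * a) ∧
      centralizer (A : Set G) = A := by
  have : Nonempty {B : Subgroup G // B.Normal ∧ IsMulCommutative B} :=
    ⟨⟨⊥, inferInstance, inferInstance⟩⟩
  obtain ⟨M, hM⟩ := Finite.exists_max
    (fun B : {B : Subgroup G // B.Normal ∧ IsMulCommutative B} => Nat.card ↥B.1)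
  haveI := M.2.1
  haveI := M.2.2
  refine ⟨M.1, M.2.1, ?_, ?_⟩
  · intro a ha b hb
    have := M.2.2.is_comm.comm ⟨a, ha⟩ ⟨b, hb⟩
    exact congrArg Subtype.val this
  · apply self_centralizing_of_max_abelian_normal
    intro B hBn hBc hMB
    exact (Subgroup.eq_of_le_of_card_ge hMB (hM ⟨B, hBn, hBc⟩)).symm

theorem ucs_three_of_two_sizes {G : Type*} [Group G] [Finite G] [Group.IsNilpotent G] (m : ℕ)
    (h : ∀ x : G, (centralizer ({x} : Set G)).index = 1 ∨ (centralizer ({x} : Set G)).index = m) :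
    Subgroup.upperCentralSeries G 3 = ⊤ := by
  obtain ⟨A, hAn, hA, hCA⟩ := exists_self_centralizing (G := G)
  haveI := hAn
  apply ucs_three_eq_top
  intro x y z
  have hS : ∀ x ∈ (Set.univ : Set G), ∀ y : G,
      (centralizer ({y} : Set G)).index < (centralizer ({x} : Set G)).index → y ∈ center G := by
    intro x _ y hy
    apply mem_center_of_index_one
    have hpos : (centralizer ({y} : Set G)).index ≠ 0 := Subgroup.index_ne_zero_of_finite
    rcases h x with hx | hx <;> rcases h y with hy' | hy' <;> omega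
  have hcl : closure (Set.univ : Set G) = ⊤ := Subgroup.closure_univ
  exact small_class_core A hA hCA Set.univ hS x (by rw [hcl]; trivial) y (by rw [hcl]; trivial)
    z (by rw [hcl]; trivial)

end Cfsg.H1
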