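import Mathlib
import Cfsg.Agent.H1.Meta7
import Cfsg.Agent.H1.Small2
import Cfsg.Prelude.Def_BaumannBlocks

set_option autoImplicit false

namespace Cfsg.H1

open Subgroup
open scoped commutatorElement

variable {G : Type*} [Group G]

section pgroup

variable [Finite G] {p : ℕ} [hp : Fact p.Prime]

theorem MCGen.frattini_eq (h2 : p ≠ 2) (hG : IsPGroup p G) {a b : G} (h : MCGen a b) {n : ℕ}
    (hn : Nat.card (commutator G) = p ^ n) (hn1 : 1 ≤ n) :
    frattini G = closure {x : G | ∃ y : G, y ^ p ^ 1 = x} := by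
  haveI := normal_closure_pow (G := G) (p ^ 1)
  apply le_antisymm
  · apply frattini_pgroup_le p
    · rw [← Subgroup.Normal.quotient_commutative_iff_commutator_le]
      apply IsPGroup.isMulCommutative_of_card_eq_prime_sq (p := p)
      rw [← index_eq_card, (h.agemo h2 hG hn hn1).2]
    · intro x
      exact subset_closure ⟨x, by rw [pow_one]⟩
  · rw [closure_le]
    rintro x ⟨y, rfl⟩
    rw [pow_one]
    exact (frattini_pgroup_ge p hG).2 y

theorem not_mem_frattini_iff (h2 : p ≠ 2) (hG : IsPGroup p G) (hmc : Cfsg.IsMetacyclic G)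
    (hna : ¬ IsMulCommutative G) (g : G) :
    g ∉ frattini G ↔ IsMulCommutative (centralizer ({g} : Set G)) := by
  obtain ⟨a, b, h⟩ := exists_mcGen hmc
  obtain ⟨n, hn⟩ := (hG.to_subgroup (commutator G)).exists_card_eq
  have hn1 : 1 ≤ n := by
    rcases Nat.eq_zero_or_pos n with rfl | h0
    · exact absurd (card_commutator_eq_one_iff.1 (by rw [hn, pow_zero])) hna
    · exact h0
  rw [h.frattini_eq h2 hG hn hn1, h.mem_agemo_iff h2 hG hn hn1,
    isMulCommutative_iff_card_le h2 hG hmc,
    le_iff_le_of_mul_eq ((centralizer ({g} : Set G)).card_mul_index.trans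
      (commutator G).card_mul_index.symm) Nat.card_pos Nat.card_pos, hn]
  obtain ⟨k, hk⟩ := hG.index (centralizer ({g} : Set G))
  rw [hk, Nat.pow_le_pow_iff_right hp.out.one_lt, Nat.pow_le_pow_iff_right hp.out.one_lt]
  omega

theorem card_mul_card_center_of_not_comm (h2 : p ≠ 2) (hG : IsPGroup p G)
    (hmc : Cfsg.IsMetacyclic G) (R : Subgroup G) (hR : ¬ IsMulCommutative R) :
    Nat.card R * Nat.card (center R) = (commutator G).index ^ 2 := by
  obtain ⟨a', b', h'⟩ := exists_mcGen (isMetacyclic_subgroup hmc R)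
  have h3 : Nat.card (commutator R) * R.index = Nat.card (commutator G) := by
    rcases card_commutator_subgroup h2 hG hmc R with ⟨-, h4⟩ | h3
    · exact absurd (card_commutator_eq_one_iff.1 h4) hR
    · exact h3
  have h4 := (center R).card_mul_index
  rw [h'.index_center h2 (hG.to_subgroup R)] at h4
  have h5 := R.card_mul_index.trans (commutator G).card_mul_index.symm
  rw [← h3, mul_assoc, mul_comm R.index, ← mul_assoc] at h5
  have h6 : Nat.card R = Nat.card (commutator R) * (commutator G).index :=
    Nat.eq_of_mul_eq_mul_right (Nat.pos_of_ne_zero R.index_ne_zero_of_finite) h5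
  have hpos : 0 < Nat.card (commutator R) ^ 2 := pow_pos Nat.card_pos 2
  apply Nat.eq_of_mul_eq_mul_right hpos
  rw [mul_assoc, h4, h6]
  ring

theorem card_mul_card_center_of_comm (R : Subgroup G) (hR : IsMulCommutative R) :
    Nat.card R * Nat.card (center R) = Nat.card R ^ 2 := by
  rw [center_eq_top_iff.2 hR, card_top, sq]

theorem card_mul_card_center_le (h2 : p ≠ 2) (hG : IsPGroup p G)
    (hmc : Cfsg.IsMetacyclic G) (R : Subgroup G) :
    Nat.card R * Nat.card (center R) ≤ (commutator G).index ^ 2 := by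
  by_cases hR : IsMulCommutative R
  · rw [card_mul_card_center_of_comm R hR]
    exact Nat.pow_le_pow_left ((isMulCommutative_iff_card_le h2 hG hmc R).1 hR) 2
  · exact (card_mul_card_center_of_not_comm h2 hG hmc R hR).le

theorem card_mul_card_center_eq_iff (h2 : p ≠ 2) (hG : IsPGroup p G)
    (hmc : Cfsg.IsMetacyclic G) (R : Subgroup G) :
    Nat.card R * Nat.card (center R) = (commutator G).index ^ 2 ↔
      (¬ IsMulCommutative R ∨ Maximal (fun K : Subgroup G => IsMulCommutative K) R) := by
  by_cases hR : IsMulCommutative R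
  · rw [card_mul_card_center_of_comm R hR, maximal_isMulCommutative_iff h2 hG hmc]
    constructor
    · intro h
      exact Or.inr (Nat.pow_left_injective (n := 2) (by norm_num) h)
    · rintro (h | h)
      · exact absurd hR h
      · rw [h]
  · exact ⟨fun _ => Or.inl hR, fun _ => card_mul_card_center_of_not_comm h2 hG hmc R hR⟩

theorem maxCentralProduct_eq (h2 : p ≠ 2) (hG : IsPGroup p G)
    (hmc : Cfsg.IsMetacyclic G) : Cfsg.maxCentralProduct G = (commutator G).index ^ 2 := by
  apply IsGreatest.csSup_eq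
  constructor
  · refine ⟨⊤, (card_mul_card_center_eq_iff h2 hG hmc ⊤).2 ?_⟩
    by_cases hR : IsMulCommutative (⊤ : Subgroup G)
    · exact Or.inr ⟨hR, fun K _ _ => le_top⟩
    · exact Or.inl hR
  · rintro k ⟨R, rfl⟩
    exact card_mul_card_center_le h2 hG hmc R

end pgroup

end Cfsg.H1
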