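import Mathlib

/-! Centralizers in generalized quaternion groups. -/

namespace Cfsg.H1

open Subgroup QuaternionGroup

theorem zmod_two_mul_eq_zero {n : ℕ} [NeZero n] (j : ZMod (2 * n)) (h : 2 * j = 0) :
    j = 0 ∨ j = (n : ZMod (2 * n)) := by
  have hn : 0 < n := Nat.pos_of_ne_zero (NeZero.ne n)
  haveI : NeZero (2 * n) := ⟨by omega⟩
  have h1 : ((2 * j.val : ℕ) : ZMod (2 * n)) = 0 := by
    push_cast
    rw [ZMod.natCast_zmod_val]
    exact h
  rw [ZMod.natCast_eq_zero_iff] at h1
  have h2 : n ∣ j.val := Nat.dvd_of_mul_dvd_mul_left (by norm_num) h1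
  have h3 : j.val < 2 * n := ZMod.val_lt j
  obtain ⟨c, hc⟩ := h2
  have hc2 : c < 2 := by
    by_contra hcon
    push Not at hcon
    have : n * 2 ≤ n * c := Nat.mul_le_mul_left n hcon
    omega
  have hj : j = ((j.val : ℕ) : ZMod (2 * n)) := (ZMod.natCast_zmod_val j).symm
  interval_cases c
  · left; rw [hj, hc]; simp
  · right; rw [hj, hc]; simp

theorem quat_centralizer_isCyclic {n : ℕ} [NeZero n] (g : QuaternionGroup n)
    (hg : g ∉ center (QuaternionGroup n)) : IsCyclic (centralizer ({g} : Set (QuaternionGroup n))) := by
  rcases g with i | i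
  · -- g = a i
    have hi : 2 * i ≠ 0 := by
      intro h0
      apply hg
      rw [mem_center_iff]
      rintro (j | j)
      · rw [a_mul_a, a_mul_a, add_comm]
      · rw [a_mul_xa, xa_mul_a]
        congr 1
        have : j + i - (j - i) = 0 := by
          have h5 : j + i - (j - i) = 2 * i := by ring
          rw [h5]; exact h0
        exact sub_eq_zero.mp this
    have hle : centralizer ({a i} : Set (QuaternionGroup n)) ≤ zpowers (a 1) := by
      rintro (j | j) hj
      · rw [mem_zpowers_iff]
        refine ⟨(j.val : ℤ), ?_⟩
        haveI : NeZero (2 * n) := ⟨by have := NeZero.ne n; omega⟩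
        rw [zpow_natCast, a_one_pow, ZMod.natCast_zmod_val]
      · exfalso
        rw [mem_centralizer_singleton_iff, xa_mul_a, a_mul_xa] at hj
        apply hi
        have h1 : j + i = j - i := by injection hj
        have : 2 * i = (j + i) - (j - i) := by ring
        rw [this, h1, sub_self]
    exact isCyclic_of_le hle
  · -- g = xa i
    have hle : centralizer ({xa i} : Set (QuaternionGroup n)) ≤ zpowers (xa i) := by
      rintro (j | j) hj
      · rw [mem_centralizer_singleton_iff, a_mul_xa, xa_mul_a] at hj
        have h1 : i - j = i + j := by injection hj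
        have h2 : 2 * j = 0 := by
          have : 2 * j = (i + j) - (i - j) := by ring
          rw [this, h1, sub_self]
        rcases zmod_two_mul_eq_zero j h2 with rfl | rfl
        · rw [a_zero]; exact one_mem _
        · rw [← xa_sq i]; exact pow_mem (mem_zpowers _) 2
      · rw [mem_centralizer_singleton_iff, xa_mul_xa, xa_mul_xa] at hj
        have h1 : (n : ZMod (2 * n)) + i - j = n + j - i := by injection hj
        have h2 : 2 * (j - i) = 0 := by
          have : 2 * (j - i) = ((n : ZMod (2 * n)) + j - i) - (n + i - j) := by ring
          rw [this, h1, sub_self]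
        rcases zmod_two_mul_eq_zero _ h2 with h3 | h3
        · have : j = i := sub_eq_zero.mp h3
          rw [this]; exact mem_zpowers _
        · have : j = i + n := by rw [← h3]; ring
          have h4 : xa j = xa i ^ 3 := by
            rw [pow_succ, xa_sq, a_mul_xa, this]
            congr 1
            have h5 : (2 : ZMod (2 * n)) * n = 0 := by
              have : ((2 * n : ℕ) : ZMod (2 * n)) = 0 := ZMod.natCast_self _
              push_cast at this
              exact this
            have h6 : i + (n : ZMod (2 * n)) - (i - n) = 0 := by
              have : i + (n : ZMod (2 * n)) - (i - n) = 2 * n := by ring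
              rw [this, h5]
            exact sub_eq_zero.mp h6
          rw [h4]; exact pow_mem (mem_zpowers _) 3
    exact isCyclic_of_le hle

end Cfsg.H1
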