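import Mathlib
import Cfsg.Agent.H1.QuatCent
import Cfsg.Agent.H1.Kegel1
import Cfsg.Agent.H1.FrobCenter
import Cfsg.Agent.H1.Fit
import Cfsg.Agent.S0016

/-! Nilpotent groups whose proper element centralizers are cyclic. -/

namespace Cfsg.H1

open Subgroup

variable {G : Type*} [Group G] [Finite G]

omit [Finite G] in
theorem cyclic_centralizers_of_quat_prod (k m : ℕ) (hm : Odd m)
    (e : G ≃* QuaternionGroup (2 ^ k) × Multiplicative (ZMod m)) (x : G) (hx : x ∉ center G) :
    IsCyclic (centralizer ({x} : Set G)) := by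
  haveI : NeZero (2 ^ k) := ⟨by positivity⟩
  haveI : NeZero m := ⟨by rintro rfl; simp at hm⟩
  set a := (e x).1 with ha
  have hac : a ∉ center (QuaternionGroup (2 ^ k)) := by
    intro hc
    apply hx
    rw [mem_center_iff] at hc ⊢
    intro y
    apply e.injective
    rw [map_mul, map_mul]
    apply Prod.ext
    · exact hc (e y).1
    · exact mul_comm _ _
  haveI h1 := quat_centralizer_isCyclic a hac
  let f1 : centralizer ({x} : Set G) →* centralizer ({a} : Set (QuaternionGroup (2 ^ k))) :=
    ((MonoidHom.fst _ _).comp (e.toMonoidHom.comp (centralizer ({x} : Set G)).subtype)).codRestrict _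
      (by
        intro y
        have hy := mem_centralizer_singleton_iff.mp y.2
        rw [mem_centralizer_singleton_iff]
        have := congrArg (fun t => (e t).1) hy
        simpa using this)
  let f2 : centralizer ({x} : Set G) →* Multiplicative (ZMod m) :=
    (MonoidHom.snd _ _).comp (e.toMonoidHom.comp (centralizer ({x} : Set G)).subtype)
  have hinj : Function.Injective (f1.prod f2) := by
    intro y z hyz
    apply Subtype.ext
    apply e.injective
    have h2 := congrArg (fun t => (t.1 : QuaternionGroup (2 ^ k))) hyz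
    have h3 := congrArg (fun t => t.2) hyz
    exact Prod.ext h2 h3
  haveI : IsCyclic (centralizer ({a} : Set (QuaternionGroup (2 ^ k))) × Multiplicative (ZMod m)) := by
    rw [Group.isCyclic_prod_iff]
    refine ⟨h1, inferInstance, ?_⟩
    have h4 : Nat.card (centralizer ({a} : Set (QuaternionGroup (2 ^ k)))) ∣ 2 ^ (k + 2) := by
      have := card_subgroup_dvd_card (centralizer ({a} : Set (QuaternionGroup (2 ^ k))))
      rw [Nat.card_eq_fintype_card (α := QuaternionGroup (2 ^ k)), QuaternionGroup.card] at this
      rw [pow_add, mul_comm]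
      exact this
    have h5 : Nat.card (Multiplicative (ZMod m)) = m := by
      rw [Nat.card_congr Multiplicative.toAdd, Nat.card_zmod]
    rw [h5]
    apply Nat.Coprime.coprime_dvd_left h4
    apply Nat.Coprime.pow_left
    exact (Nat.coprime_two_left).mpr hm
  exact isCyclic_of_injective (f1.prod f2) hinj

/-- a nilpotent group with all Sylow subgroups abelian is abelian -/
theorem comm_of_nilpotent_of_sylow_comm [hG : Group.IsNilpotent G]
    (h : ∀ (p : ℕ) [Fact p.Prime] (P : Sylow p G), IsMulCommutative P) : IsMulCommutative G := by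
  let S : ∀ p : Nat.Primes, Sylow (p : ℕ) G := fun p => (inferInstance : Nonempty (Sylow p G)).some
  have htop := iSup_sylow_eq_top S
  have hord : ∀ (p : Nat.Primes) (s : G), s ∈ (S p : Subgroup G) → ∃ k, orderOf s = (p : ℕ) ^ k := by
    intro p s hs
    have : Fact (p : ℕ).Prime := ⟨p.2⟩
    obtain ⟨k, hk⟩ := (S p).isPGroup' ⟨s, hs⟩
    have hk' : s ^ (p : ℕ) ^ k = 1 := congrArg Subtype.val hk
    obtain ⟨j, -, hj⟩ := (Nat.dvd_prime_pow p.2).mp (orderOf_dvd_of_pow_eq_one hk')
    exact ⟨j, hj⟩
  have hcent : ∀ (p : Nat.Primes) (s : G), s ∈ (S p : Subgroup G) → s ∈ center G := by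
    intro p s hs
    have h1 : (⨆ q : Nat.Primes, (S q : Subgroup G)) ≤ centralizer ({s} : Set G) := by
      apply iSup_le
      intro q t ht
      rw [mem_centralizer_singleton_iff]
      by_cases hpq : p = q
      · subst hpq
        have : Fact (p : ℕ).Prime := ⟨p.2⟩
        have := h p (S p)
        exact congrArg Subtype.val (mul_comm' (⟨t, ht⟩ : (S p : Subgroup G)) ⟨s, hs⟩)
      · obtain ⟨i, hi⟩ := hord p s hs
        obtain ⟨j, hj⟩ := hord q t ht
        apply (commute_of_coprime_of_nilpotent G t s _).eq
        rw [hi, hj]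
        apply Nat.Coprime.pow
        rw [Nat.coprime_primes q.2 p.2]
        intro hh
        exact hpq (Subtype.ext hh.symm)
    rw [htop] at h1
    rw [mem_center_iff]
    intro g
    exact mem_centralizer_singleton_iff.mp (h1 (mem_top g))
  have h2 : (⨆ q : Nat.Primes, (S q : Subgroup G)) ≤ center G := iSup_le (fun q s hs => hcent q s hs)
  rw [htop] at h2
  refine ⟨⟨fun a b => ?_⟩⟩
  exact (mem_center_iff.mp (h2 (mem_top b)) a)

theorem quat_prod_of_cyclic_centralizers (hG : Group.IsNilpotent G) (hna : ¬ IsMulCommutative G)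
    (h : ∀ x : G, x ∉ center G → IsCyclic (centralizer ({x} : Set G))) :
    ∃ (k m : ℕ), 1 ≤ k ∧ Odd m ∧
      Nonempty (G ≃* QuaternionGroup (2 ^ k) × Multiplicative (ZMod m)) := by
  obtain ⟨p, hp, P, hP⟩ : ∃ (p : ℕ) (_ : Fact p.Prime) (P : Sylow p G), ¬ IsMulCommutative P := by
    by_contra hcon
    push Not at hcon
    exact hna (comm_of_nilpotent_of_sylow_comm (fun p _ P => hcon p inferInstance P))
  obtain ⟨K, hK⟩ := exists_right_complement'_of_coprime P.card_coprime_index
  have hKcard : Nat.card K = (P : Subgroup G).index := hK.symm.index_eq_card.symm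
  have hKp : (Nat.card K).Coprime p := by
    rw [hKcard]
    exact ((Nat.Prime.coprime_iff_not_dvd hp.out).mpr P.not_dvd_index).symm
  have hcomm : ∀ s ∈ (P : Subgroup G), ∀ t ∈ K, Commute s t := by
    intro s hs t ht
    apply commute_of_coprime_of_nilpotent G
    obtain ⟨k, hk⟩ := P.isPGroup' ⟨s, hs⟩
    have hk' : s ^ p ^ k = 1 := congrArg Subtype.val hk
    have h1 : orderOf t ∣ Nat.card K := by
      have := orderOf_dvd_natCard (⟨t, ht⟩ : K)
      rwa [Subgroup.orderOf_mk] at this
    apply Nat.Coprime.coprime_dvd_left (orderOf_dvd_of_pow_eq_one hk')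
    apply Nat.Coprime.coprime_dvd_right h1
    exact (Nat.Coprime.pow_right k hKp).symm
  -- a noncentral element of P
  obtain ⟨x0, hx0P, hx0⟩ : ∃ x0 ∈ (P : Subgroup G), ∃ y ∈ (P : Subgroup G), x0 * y ≠ y * x0 := by
    by_contra hcon
    push Not at hcon
    apply hP
    exact ⟨⟨fun a b => Subtype.ext (hcon a a.2 b b.2)⟩⟩
  have hx0c : x0 ∉ center G := by
    obtain ⟨y, -, hy⟩ := hx0
    intro hc
    exact hy ((mem_center_iff.mp hc y).symm)
  have hKcyc : IsCyclic K := by
    haveI := h x0 hx0c
    apply isCyclic_of_le (H' := centralizer ({x0} : Set G))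
    intro t ht
    rw [mem_centralizer_singleton_iff]
    exact (hcomm x0 hx0P t ht).eq.symm
  set Ps : Subgroup G := (P : Subgroup G) with hPs
  have hPsp : IsPGroup p Ps := P.isPGroup'
  haveI : Nontrivial Ps := by
    by_contra hnt
    rw [not_nontrivial_iff_subsingleton] at hnt
    apply hP
    exact ⟨⟨fun a b => by rw [Subsingleton.elim a b]⟩⟩
  haveI := hPsp.center_nontrivial
  have hcz : p ∣ Nat.card (center Ps) := by
    obtain ⟨k, hk⟩ := (hPsp.to_subgroup (center Ps)).exists_card_eq
    rcases k with _ | k
    · exfalso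
      rw [pow_zero] at hk
      have := (Nat.card_eq_one_iff_unique.1 hk).1
      exact not_subsingleton (center Ps) this
    · rw [hk]; exact dvd_pow_self p (by omega)
  obtain ⟨z, hz⟩ := exists_prime_orderOf_dvd_card' (G := center Ps) p hcz
  have hzc : ∀ y : Ps, ((z : Ps) : G) * y = y * ((z : Ps) : G) := by
    intro y
    exact (congrArg Subtype.val (mem_center_iff.1 z.2 y)).symm
  have hzo : orderOf ((z : Ps) : G) = p := by
    rw [Subgroup.orderOf_coe, Subgroup.orderOf_coe, hz]
  have hmem : ∀ y : Ps, y ^ p = 1 → y ∈ zpowers (z : Ps) := by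
    intro y hy
    have hy' : (y : G) ^ p = 1 := by
      have := congrArg Subtype.val hy
      simpa using this
    have main : ∀ w : G, w ∉ center G → (y : G) ∈ centralizer ({w} : Set G) →
        ((z : Ps) : G) ∈ centralizer ({w} : Set G) → (y : G) ∈ zpowers ((z : Ps) : G) := by
      intro w hw h1 h2
      haveI := h w hw
      have h3 := mem_zpowers_of_pow_eq_one_of_isCyclic (α := centralizer ({w} : Set G))
        (v := ⟨_, h2⟩) (w := ⟨_, h1⟩) (r := p) (by rw [Subgroup.orderOf_mk, hzo]) hp.out.pos
        (by apply Subtype.ext; simpa using hy')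
      obtain ⟨k, hk⟩ := mem_zpowers_iff.1 h3
      rw [mem_zpowers_iff]
      refine ⟨k, ?_⟩
      have := congrArg Subtype.val hk
      simpa using this
    have h4 : (y : G) ∈ zpowers ((z : Ps) : G) := by
      by_cases hyc : (y : G) ∈ center G
      · apply main x0 hx0c
        · rw [mem_centralizer_singleton_iff]
          exact ((mem_center_iff.mp hyc) x0).symm
        · rw [mem_centralizer_singleton_iff]
          exact hzc ⟨x0, hx0P⟩
      · apply main y hyc
        · rw [mem_centralizer_singleton_iff]
        · rw [mem_centralizer_singleton_iff]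
          exact hzc y
    obtain ⟨k, hk⟩ := mem_zpowers_iff.1 h4
    rw [mem_zpowers_iff]
    refine ⟨k, ?_⟩
    apply Subtype.ext
    simpa using hk
  have key : ∀ A B : Subgroup Ps, Nat.card A = p → Nat.card B = p → A = B := by
    have hsub : ∀ C : Subgroup Ps, Nat.card C = p → C = zpowers (z : Ps) := by
      intro C hC
      have hle : C ≤ zpowers (z : Ps) := by
        intro y hy
        apply hmem
        have := pow_card_eq_one' (G := C) (x := ⟨y, hy⟩)
        rw [hC] at this
        have := congrArg (fun t : C => (t : Ps)) this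
        simpa using this
      apply eq_of_le_of_card_ge hle
      rw [hC, Nat.card_zpowers, Subgroup.orderOf_coe, hz]
    intro A B hA hB
    rw [hsub A hA, hsub B hB]
  rcases Cfsg.Agent.S0016.result p hPsp key with hc | ⟨hp2, n, ⟨e⟩⟩
  · exact absurd hc.isMulCommutative hP
  · subst hp2
    have hn : 1 ≤ n := by
      by_contra hcon
      have hn0 : n = 0 := by omega
      subst hn0
      haveI : IsCyclic (QuaternionGroup (2 ^ 0)) := by
        rw [pow_zero]; exact QuaternionGroup.quaternionGroup_one_isCyclic
      have hc : IsCyclic Ps := isCyclic_of_injective e.toMonoidHom e.injective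
      exact hP hc.isMulCommutative
    let f : Ps × K →* G := MonoidHom.noncommCoprod Ps.subtype K.subtype
      (fun s t => hcomm s s.2 t t.2)
    have hbij : Function.Bijective f := hK
    let e1 : Ps × K ≃* G := MulEquiv.ofBijective f hbij
    let e2 : K ≃* Multiplicative (ZMod (Nat.card K)) := (zmodCyclicMulEquiv hKcyc).symm
    refine ⟨n, Nat.card K, hn, ?_, ⟨e1.symm.trans (MulEquiv.prodCongr e e2)⟩⟩
    exact (Nat.coprime_two_right).mp hKp

end Cfsg.H1
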