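import Mathlib
import Cfsg.Agent.H1.HallPrep
import Cfsg.Agent.H1.Hall
import Cfsg.Agent.H1.Frob1
import Cfsg.Agent.H1.FpfCyclic
import Cfsg.Agent.S0035

set_option autoImplicit false

namespace Cfsg.H1

open Subgroup
open scoped Pointwise commutatorElement

universe u

/-- all prime divisors of `n` lie in `A` -/
def PiNum (A : Set ℕ) (n : ℕ) : Prop := ∀ p, p.Prime → p ∣ n → p ∈ A

/-- no element of order `a * b` with `a ∈ A`, `b ∉ A` primes -/
def NoAB (A : Set ℕ) (X : Type u) [Group X] : Prop :=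
  ∀ a ∈ A, ∀ b ∉ A, a.Prime → b.Prime → ¬ ∃ g : X, orderOf g = a * b

theorem PiNum.of_dvd {A : Set ℕ} {m n : ℕ} (h : PiNum A n) (hd : m ∣ n) : PiNum A m :=
  fun p hp hpm => h p hp (hpm.trans hd)

theorem PiNum.mul {A : Set ℕ} {m n : ℕ} (hm : PiNum A m) (hn : PiNum A n) : PiNum A (m * n) :=
  fun p hp hpm => (hp.dvd_mul.1 hpm).elim (hm p hp) (hn p hp)

theorem PiNum.coprime {A : Set ℕ} {m n : ℕ} (hm : PiNum A m) (hn : PiNum Aᶜ n) : m.Coprime n :=
  Nat.coprime_of_dvd fun k hk h1 h2 => hn k hk h2 (hm k hk h1)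

theorem NoAB.compl {A : Set ℕ} {X : Type u} [Group X] (h : NoAB A X) : NoAB Aᶜ X := by
  intro a ha b hb hap hbp ⟨g, hg⟩
  have hb' : b ∈ A := by simpa using hb
  exact h b hb' a ha hbp hap ⟨g, by rw [hg, mul_comm]⟩

theorem NoAB.sep {A : Set ℕ} {X : Type u} [Group X] [Finite X] (h : NoAB A X) {x y : X}
    (hc : Commute x y) (hx : PiNum A (orderOf x)) (hy : PiNum Aᶜ (orderOf y)) (hx1 : x ≠ 1) :
    y = 1 := by
  by_contra hy1
  obtain ⟨a, ha, hax⟩ := Nat.exists_prime_and_dvd (n := orderOf x)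
    (fun h1 => hx1 (orderOf_eq_one_iff.1 h1))
  obtain ⟨b, hb, hby⟩ := Nat.exists_prime_and_dvd (n := orderOf y)
    (fun h1 => hy1 (orderOf_eq_one_iff.1 h1))
  have haA := hx a ha hax
  have hbA := hy b hb hby
  have h1 : orderOf (x ^ (orderOf x / a)) = a :=
    orderOf_pow_orderOf_div (orderOf_pos x).ne' hax
  have h2 : orderOf (y ^ (orderOf y / b)) = b :=
    orderOf_pow_orderOf_div (orderOf_pos y).ne' hby
  have hne : a ≠ b := fun hab => hbA (hab ▸ haA)
  have hcop : a.Coprime b := (Nat.coprime_primes ha hb).2 hne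
  refine h a haA b hbA ha hb ⟨x ^ (orderOf x / a) * y ^ (orderOf y / b), ?_⟩
  rw [(hc.pow_pow _ _).orderOf_mul_eq_mul_orderOf_of_coprime (by rw [h1, h2]; exact hcop), h1, h2]

theorem NoAB.of_surjective {A : Set ℕ} {X Y : Type u} [Group X] [Finite X] [Group Y]
    (h : NoAB A X) (f : X →* Y) (hf : Function.Surjective f) : NoAB A Y := by
  intro a ha b hb hap hbp ⟨g, hg⟩
  obtain ⟨z, rfl⟩ := hf g
  have hd : a * b ∣ orderOf z := hg ▸ orderOf_map_dvd f z
  exact h a ha b hb hap hbp ⟨_, orderOf_pow_orderOf_div (orderOf_pos z).ne' hd⟩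

theorem NoAB.subgroup {A : Set ℕ} {X : Type u} [Group X] (h : NoAB A X) (H : Subgroup X) :
    NoAB A H := by
  intro a ha b hb hap hbp ⟨g, hg⟩
  exact h a ha b hb hap hbp ⟨(g : X), by rw [Subgroup.orderOf_coe, hg]⟩

theorem frob_layer {X : Type u} [Group X] [Finite X] {A : Set ℕ} (h : NoAB A X)
    (N : Subgroup X) [N.Normal] (hbot : N ≠ ⊥) (htop : N ≠ ⊤) (hN : PiNum A (Nat.card N))
    (hi : PiNum Aᶜ N.index) :
    ∃ C : Subgroup X, Cfsg.IsFrobeniusComplement C ∧ Cfsg.frobeniusKernel C = (N : Set X) := by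
  obtain ⟨C, hC⟩ := exists_right_complement'_of_coprime (N := N) (hN.coprime hi)
  have hCcard : N.index = Nat.card C := hC.symm.index_eq_card
  have hCbot : C ≠ ⊥ := by
    rintro rfl
    have := hC.sup_eq_top
    rw [sup_bot_eq] at this
    exact htop this
  have hfpf : ∀ c ∈ C, c ≠ 1 → N ⊓ Subgroup.centralizer {c} = ⊥ := by
    intro c hc hc1
    rw [eq_bot_iff]
    rintro x ⟨hxN, hxC⟩
    rw [Subgroup.mem_bot]
    by_contra hx1
    have hcomm : Commute x c := by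
      have := Subgroup.mem_centralizer_singleton_iff.1 hxC
      exact this
    apply hc1
    refine h.sep hcomm (hN.of_dvd ?_) (hi.of_dvd ?_) hx1
    · exact Subgroup.orderOf_dvd_natCard N hxN
    · rw [hCcard]; exact Subgroup.orderOf_dvd_natCard C hc
  have hF : Cfsg.IsFrobeniusComplement C := (frob_iff_fpf N C hC hbot hCbot).2 hfpf
  refine ⟨C, hF, ?_⟩
  obtain ⟨N', hN', hN'n, hN'c⟩ := Cfsg.Agent.S0035.result C hF
  have hle : N ≤ N' := by
    intro x hx
    have : x ∈ (N' : Set X) := by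
      rw [hN']
      by_cases hx1 : x = 1
      · exact Or.inl hx1
      · right
        intro g hg
        apply hx1
        rw [mem_conj_smul_iff] at hg
        have h1 : g⁻¹ * x * g ∈ N := by
          have := ‹N.Normal›.conj_mem x hx g⁻¹
          simpa using this
        have h2 : g⁻¹ * x * g ∈ N ⊓ C := ⟨h1, hg⟩
        rw [hC.disjoint.eq_bot, Subgroup.mem_bot] at h2
        have : x = g * (g⁻¹ * x * g) * g⁻¹ := by group
        rw [this, h2]; group
    exact this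
  have hcard : Nat.card N' ≤ Nat.card N := by
    have h1 := hC.card_mul_card
    have h2 := hN'c.card_mul_card
    have hpos : 0 < Nat.card C := Nat.card_pos
    exact le_of_eq (Nat.eq_of_mul_eq_mul_right hpos (h2.trans h1.symm))
  have := Subgroup.eq_of_le_of_card_ge hle hcard
  rw [← hN', this]

theorem exists_max_normal_pi {X : Type u} [Group X] [Finite X] (A : Set ℕ) :
    ∃ N : Subgroup X, N.Normal ∧ PiNum A (Nat.card N) ∧
      ∀ R : Subgroup X, R.Normal → PiNum A (Nat.card R) → R ≤ N := by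
  obtain ⟨N, hN⟩ := exists_maximal_of_wellFoundedGT
    (fun N : Subgroup X => N.Normal ∧ PiNum A (Nat.card N))
    ⟨⊥, inferInstance, fun p hp hd => by
      rw [Subgroup.card_bot] at hd
      exact absurd (Nat.dvd_one.1 hd) hp.one_lt.ne'⟩
  refine ⟨N, hN.1.1, hN.1.2, fun R hR hRA => ?_⟩
  haveI := hN.1.1
  haveI := hR
  have hP : (N ⊔ R : Subgroup X).Normal ∧ PiNum A (Nat.card (N ⊔ R : Subgroup X)) :=
    ⟨inferInstance, (hN.1.2.mul hRA).of_dvd (card_sup_dvd N R)⟩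
  exact le_sup_right.trans (hN.2 hP le_sup_left)

theorem quot_no_normal_pi {X : Type u} [Group X] [Finite X] {A : Set ℕ} (N : Subgroup X)
    [N.Normal] (hN : PiNum A (Nat.card N))
    (hmax : ∀ R : Subgroup X, R.Normal → PiNum A (Nat.card R) → R ≤ N)
    (R : Subgroup (X ⧸ N)) (hR : R.Normal) (hRA : PiNum A (Nat.card R)) : R = ⊥ := by
  have h1 : R.comap (QuotientGroup.mk' N) ≤ N :=
    hmax _ (hR.comap _) (by rw [card_comap_mk']; exact hRA.mul hN)
  have h2 := Subgroup.map_mono (f := QuotientGroup.mk' N) h1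
  rw [Subgroup.map_comap_eq_self_of_surjective (QuotientGroup.mk'_surjective N),
    QuotientGroup.map_mk'_self] at h2
  exact le_bot_iff.1 h2

theorem exists_normal_ab_pi {X : Type u} [Group X] [Finite X] [Group.IsSolvable X] [Nontrivial X]
    (A : Set ℕ) : ∃ R : Subgroup X, R.Normal ∧ R ≠ ⊥ ∧ ⁅R, R⁆ = ⊥ ∧
      (PiNum A (Nat.card R) ∨ PiNum Aᶜ (Nat.card R)) := by
  obtain ⟨p, R, hp, hR1, -, hR3, hR4, hR5⟩ := exists_normal_elemAb_le (⊤ : Subgroup X)
    inferInstance top_ne_bot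
  refine ⟨R, hR1, hR3, hR4, ?_⟩
  haveI : Fact p.Prime := ⟨hp⟩
  have hpg : IsPGroup p R := fun x => ⟨1, by rw [pow_one]; exact Subtype.ext (hR5 x x.2)⟩
  obtain ⟨k, hk⟩ := IsPGroup.iff_card.1 hpg
  have key : ∀ q, q.Prime → q ∣ Nat.card R → q = p := by
    intro q hq hd
    rw [hk] at hd
    exact (Nat.prime_dvd_prime_iff_eq hq hp).1 (hq.dvd_of_dvd_pow hd)
  by_cases hpA : p ∈ A
  · left; intro q hq hd; rw [key q hq hd]; exact hpA
  · right; intro q hq hd; rw [key q hq hd]; exact hpA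

theorem quot_abelian_cyclic {G : Type u} [Group G] [Finite G] {A : Set ℕ} (h : NoAB A G)
    (V : Subgroup G) [V.Normal] (hV : V ≠ ⊥) (hVab : ⁅V, V⁆ = ⊥) (hVA : PiNum A (Nat.card V))
    (N : Subgroup G) [N.Normal] (hN : PiNum A (Nat.card N))
    (R : Subgroup (G ⧸ N)) (hRab : ⁅R, R⁆ = ⊥) (hRA : PiNum Aᶜ (Nat.card R)) : IsCyclic R := by
  obtain ⟨hNT, hrel⟩ := relIndex_comap_mk' N R
  obtain ⟨B, hBT, hBcard, hdisj, hsup⟩ := sz_exists_internal hNT
    (by rw [normalizer_eq_top]; exact le_top) (by rw [hrel]; exact hN.coprime hRA)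
  have hmap : B.map (QuotientGroup.mk' N) = R := by
    have h1 := congrArg (Subgroup.map (QuotientGroup.mk' N)) hsup
    rwa [Subgroup.map_sup, QuotientGroup.map_mk'_self, bot_sup_eq,
      Subgroup.map_comap_eq_self_of_surjective (QuotientGroup.mk'_surjective N)] at h1
  have hRc : ∀ x ∈ R, ∀ y ∈ R, x * y = y * x := by
    rw [commutator_eq_bot_iff_le_centralizer] at hRab
    intro x hx y hy
    exact (hRab hy x hx)
  have hVc : ∀ x ∈ V, ∀ y ∈ V, x * y = y * x := by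
    rw [commutator_eq_bot_iff_le_centralizer] at hVab
    intro x hx y hy
    exact (hVab hy x hx)
  have hBc : ∀ x ∈ B, ∀ y ∈ B, x * y = y * x := by
    intro x hx y hy
    have h1 : (QuotientGroup.mk' N) x * (QuotientGroup.mk' N) y
        = (QuotientGroup.mk' N) y * (QuotientGroup.mk' N) x :=
      hRc _ (hmap ▸ Subgroup.mem_map_of_mem _ hx) _ (hmap ▸ Subgroup.mem_map_of_mem _ hy)
    rw [← map_mul, ← map_mul] at h1
    have h2 : (y * x)⁻¹ * (x * y) ∈ N := by
      rw [← QuotientGroup.eq_one_iff, ← QuotientGroup.mk'_apply, map_mul, map_inv, h1]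
      simp
    have h3 : (y * x)⁻¹ * (x * y) ∈ N ⊓ B :=
      ⟨h2, B.mul_mem (B.inv_mem (B.mul_mem hy hx)) (B.mul_mem hx hy)⟩
    rw [hdisj.eq_bot, Subgroup.mem_bot] at h3
    exact (inv_mul_eq_one.1 h3).symm
  haveI : IsMulCommutative V := ⟨⟨fun a b => Subtype.ext (hVc a a.2 b b.2)⟩⟩
  haveI hBcomm : IsMulCommutative B := ⟨⟨fun a b => Subtype.ext (hBc a a.2 b b.2)⟩⟩
  have hcyc : IsCyclic B := by
    refine fpf_on_abelian_cyclic B V hV (by rw [normalizer_eq_top]; exact le_top) ?_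
      (Or.inl hBcomm)
    intro a ha ha1
    rw [eq_bot_iff]
    rintro x ⟨hxV, hxC⟩
    rw [Subgroup.mem_bot]
    by_contra hx1
    have hcomm : Commute x a := Subgroup.mem_centralizer_singleton_iff.1 hxC
    apply ha1
    refine h.sep hcomm (hVA.of_dvd (Subgroup.orderOf_dvd_natCard V hxV)) (hRA.of_dvd ?_) hx1
    rw [← hrel, ← hBcard]
    exact Subgroup.orderOf_dvd_natCard B ha
  rw [← hmap]
  exact isCyclic_of_surjective ((QuotientGroup.mk' N).subgroupMap B)
    ((QuotientGroup.mk' N).subgroupMap_surjective B)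

theorem commutator_le_centralizer_of_cyclic {Y : Type u} [Group Y] (R : Subgroup Y) [R.Normal]
    [hc : IsCyclic R] : commutator Y ≤ centralizer (R : Set Y) := by
  obtain ⟨m, hm⟩ := hc.exists_generator
  have hpow : ∀ g : Y, ∃ i : ℤ, g * (m : Y) * g⁻¹ = (m : Y) ^ i := by
    intro g
    have h1 : g * (m : Y) * g⁻¹ ∈ R := ‹R.Normal›.conj_mem _ m.2 g
    obtain ⟨i, hi⟩ := Subgroup.mem_zpowers_iff.1 (hm ⟨_, h1⟩)
    exact ⟨i, by have := congrArg Subtype.val hi; simpa using this.symm⟩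
  have hcm : ∀ g k : Y, (g * k) * (m : Y) * (g * k)⁻¹ = (k * g) * (m : Y) * (k * g)⁻¹ := by
    intro g k
    obtain ⟨i, hi⟩ := hpow g
    obtain ⟨j, hj⟩ := hpow k
    have h1 : (g * k) * (m : Y) * (g * k)⁻¹ = g * (k * (m : Y) * k⁻¹) * g⁻¹ := by group
    have h2 : (k * g) * (m : Y) * (k * g)⁻¹ = k * (g * (m : Y) * g⁻¹) * k⁻¹ := by group
    rw [h1, h2, hi, hj, ← conj_zpow, ← conj_zpow, hi, hj, ← zpow_mul, ← zpow_mul, mul_comm]
  rw [commutator_def, Subgroup.commutator_le]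
  intro g _ k _
  rw [Subgroup.mem_centralizer_iff]
  intro x hx
  obtain ⟨i, hi⟩ := Subgroup.mem_zpowers_iff.1 (hm ⟨x, hx⟩)
  have hxi : x = (m : Y) ^ i := by have := congrArg Subtype.val hi; simpa using this.symm
  have hgen : ∀ g k : Y, (k * g)⁻¹ * (g * k) * (m : Y) = (m : Y) * ((k * g)⁻¹ * (g * k)) := by
    intro g k
    have h4 : (g * k) * (m : Y) = (k * g) * (m : Y) * (k * g)⁻¹ * (g * k) := by
      rw [← hcm g k]; group
    calc (k * g)⁻¹ * (g * k) * (m : Y) = (k * g)⁻¹ * ((g * k) * (m : Y)) := by group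
      _ = (k * g)⁻¹ * ((k * g) * (m : Y) * (k * g)⁻¹ * (g * k)) := by rw [h4]
      _ = _ := by group
  have hmc : Commute (m : Y) ⁅g, k⁆ := by
    have h5 : ⁅g, k⁆ = (k⁻¹ * g⁻¹)⁻¹ * (g⁻¹ * k⁻¹) := by
      rw [commutatorElement_def]; group
    rw [h5]
    exact (hgen g⁻¹ k⁻¹).symm
  rw [hxi]
  exact (hmc.zpow_left i)

theorem centralizer_pi_compl {Y : Type u} [Group Y] [Finite Y] {A : Set ℕ} (h : NoAB A Y)
    (R : Subgroup Y) (hR : R ≠ ⊥) (hRA : PiNum Aᶜ (Nat.card R)) :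
    PiNum Aᶜ (Nat.card (centralizer (R : Set Y))) := by
  intro p hp hd hpA
  haveI : Fact p.Prime := ⟨hp⟩
  obtain ⟨x, hx⟩ := exists_prime_orderOf_dvd_card' p hd
  obtain ⟨y', hy'⟩ := Subgroup.ne_bot_iff_exists_ne_one.1 hR
  obtain ⟨y, hy, hy1⟩ : ∃ y : Y, y ∈ R ∧ y ≠ 1 := ⟨y', y'.2, fun h1 => hy' (Subtype.ext h1)⟩
  have hxo : orderOf (x : Y) = p := by rw [Subgroup.orderOf_coe, hx]
  have hcomm : Commute (x : Y) (y : Y) := (Subgroup.mem_centralizer_iff.1 x.2 y hy).symm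
  apply hy1
  refine h.sep hcomm ?_ (hRA.of_dvd (Subgroup.orderOf_dvd_natCard R hy)) ?_
  · intro q hq hqd
    rw [hxo] at hqd
    rw [(Nat.prime_dvd_prime_iff_eq hq hp).1 hqd]; exact hpA
  · intro h1
    rw [h1, orderOf_one] at hxo
    exact hp.one_lt.ne hxo

theorem index_pi_of_commutator_le {Y : Type u} [Group Y] [Finite Y] {B : Set ℕ}
    (M : Subgroup Y) [M.Normal] (hM : PiNum B (Nat.card M))
    (hmax : ∀ R : Subgroup Y, R.Normal → PiNum B (Nat.card R) → R ≤ M)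
    (hcomm : commutator Y ≤ M) : PiNum Bᶜ M.index := by
  intro p hp hd hpB
  haveI : Fact p.Prime := ⟨hp⟩
  obtain ⟨P⟩ : Nonempty (Sylow p Y) := inferInstance
  have hTn : ((P : Subgroup Y) ⊔ M).Normal := by
    constructor
    intro t ht g
    have h1 : g * t * g⁻¹ = ⁅g, t⁆ * t := by rw [commutatorElement_def]; group
    rw [h1]
    refine Subgroup.mul_mem _ (le_sup_right (a := (P : Subgroup Y)) (hcomm ?_)) ht
    rw [commutator_def]
    exact Subgroup.commutator_mem_commutator (Subgroup.mem_top g) (Subgroup.mem_top t)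
  have hPB : PiNum B (Nat.card (P : Subgroup Y)) := by
    obtain ⟨k, hk⟩ := IsPGroup.iff_card.1 P.2
    intro q hq hqd
    rw [hk] at hqd
    rw [(Nat.prime_dvd_prime_iff_eq hq hp).1 (hq.dvd_of_dvd_pow hqd)]; exact hpB
  have hle : (P : Subgroup Y) ≤ M :=
    le_sup_left.trans (hmax _ hTn ((hPB.mul hM).of_dvd (card_sup_dvd _ M)))
  exact P.not_dvd_index (hd.trans (Subgroup.index_dvd_of_le hle))

theorem prime_graph_main {G : Type u} [Group G] [Finite G] [Group.IsSolvable G] {A : Set ℕ}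
    (h : NoAB A G) (hb : ∃ b ∉ A, b.Prime ∧ b ∣ Nat.card G)
    (V : Subgroup G) (hVn : V.Normal) (hV : V ≠ ⊥) (hVab : ⁅V, V⁆ = ⊥)
    (hVA : PiNum A (Nat.card V)) :
    (∃ C : Subgroup G, Cfsg.IsFrobeniusComplement C) ∨
    (∃ (H K : Subgroup G) (_ : H.Normal), K.Normal ∧ H < K ∧
      (∃ C : Subgroup ↥K, Cfsg.IsFrobeniusComplement C ∧
        Cfsg.frobeniusKernel C = (H.subgroupOf K : Set ↥K)) ∧
      (∃ C : Subgroup (G ⧸ H), Cfsg.IsFrobeniusComplement C ∧
        Cfsg.frobeniusKernel C = (K.map (QuotientGroup.mk' H) : Set (G ⧸ H)))) := by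
  obtain ⟨N, hNn, hNA, hNmax⟩ := exists_max_normal_pi (X := G) A
  haveI := hNn
  haveI := hVn
  have hNbot : N ≠ ⊥ := by
    rintro rfl
    exact hV (le_bot_iff.1 (hNmax V hVn hVA))
  have hNtop : N ≠ ⊤ := by
    rintro rfl
    obtain ⟨b, hbA, hbp, hbd⟩ := hb
    exact hbA (hNA b hbp (by rwa [Subgroup.card_top]))
  have hY : NoAB A (G ⧸ N) := h.of_surjective (QuotientGroup.mk' N) (QuotientGroup.mk'_surjective N)
  haveI : Nontrivial (G ⧸ N) := QuotientGroup.nontrivial_iff.2 hNtop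
  obtain ⟨R, hRn, hRbot, hRab, hRA⟩ := exists_normal_ab_pi (X := G ⧸ N) A
  have hRA' : PiNum Aᶜ (Nat.card R) := by
    rcases hRA with hRA | hRA
    · exact absurd (quot_no_normal_pi N hNA hNmax R hRn hRA) hRbot
    · exact hRA
  haveI := hRn
  haveI hRcyc : IsCyclic R := quot_abelian_cyclic h V hV hVab hVA N hNA R hRab hRA'
  obtain ⟨M, hMn, hMA, hMmax⟩ := exists_max_normal_pi (X := G ⧸ N) Aᶜ
  haveI := hMn
  have hcM : commutator (G ⧸ N) ≤ M :=
    (commutator_le_centralizer_of_cyclic R).trans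
      (hMmax _ inferInstance (centralizer_pi_compl hY R hRbot hRA'))
  have hMi : PiNum Aᶜᶜ M.index := index_pi_of_commutator_le M hMA hMmax hcM
  have hMbot : M ≠ ⊥ := by
    rintro rfl
    exact hRbot (le_bot_iff.1 (hMmax R hRn hRA'))
  by_cases hMtop : M = ⊤
  · left
    obtain ⟨C, hC, -⟩ := frob_layer h N hNbot hNtop hNA (by
      rw [hMtop, Subgroup.card_top] at hMA
      exact hMA)
    exact ⟨C, hC⟩
  · right
    obtain ⟨hNK, hrel⟩ := relIndex_comap_mk' N M
    have hmapK : (M.comap (QuotientGroup.mk' N)).map (QuotientGroup.mk' N) = M :=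
      Subgroup.map_comap_eq_self_of_surjective (QuotientGroup.mk'_surjective N) M
    have hKN : ¬ M.comap (QuotientGroup.mk' N) ≤ N := by
      intro hle
      have h2 := Subgroup.map_mono (f := QuotientGroup.mk' N) hle
      rw [hmapK, QuotientGroup.map_mk'_self] at h2
      exact hMbot (le_bot_iff.1 h2)
    refine ⟨N, M.comap (QuotientGroup.mk' N), hNn, hMn.comap _, lt_of_le_not_ge hNK hKN, ?_, ?_⟩
    · refine frob_layer (h.subgroup _) (N.subgroupOf (M.comap (QuotientGroup.mk' N))) ?_ ?_ ?_ ?_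
      · rw [Ne, Subgroup.subgroupOf_eq_bot, disjoint_iff, inf_eq_left.2 hNK]
        exact hNbot
      · rw [Ne, Subgroup.subgroupOf_eq_top]
        exact hKN
      · rw [card_subgroupOf_of_le hNK]; exact hNA
      · have : (N.subgroupOf (M.comap (QuotientGroup.mk' N))).index = Nat.card M := hrel
        rw [this]; exact hMA
    · rw [hmapK]
      exact frob_layer hY.compl M hMbot hMtop hMA hMi

end Cfsg.H1
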