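import Mathlib
import Cfsg.Agent.H1.Compl
import Cfsg.Agent.Lib.Helper22.FittingSub

set_option autoImplicit false

namespace Cfsg.H1

open Subgroup
open scoped Pointwise

variable {G : Type*} [Group G]

/-- S0043 -/
theorem minimal_normal_solvable [Finite G] [Group.IsSolvable G]
    (N : Subgroup G) [N.Normal] (hN : N ≠ ⊥)
    (hmin : ∀ M : Subgroup G, M.Normal → M ≤ N → M = ⊥ ∨ M = N) :
    IsMulCommutative N ∧ ∃ p : ℕ, p.Prime ∧ ∀ x ∈ N, x ^ p = 1 := by
  obtain ⟨p, A, hp, hA1, hA2, hA3, hA4, hA5⟩ := exists_normal_elemAb_le N inferInstance hN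
  have hAN : A = N := (hmin A hA1 hA2).resolve_left hA3
  subst hAN
  exact ⟨isMulCommutative_of_commutator_eq_bot hA4, p, hp, hA5⟩

/-- S0064 -/
theorem nilpotent_iff_all_subnormal [Finite G] :
    Group.IsNilpotent G ↔ ∀ H : Subgroup G, H.IsSubnormal := by
  constructor
  · intro h H
    exact Cfsg.Agent.Lib.Helper22.isSubnormal_of_isNilpotent H
  · intro h
    have q := (Group.isNilpotent_of_finite_tfae (G := G)).out 0 1
    rw [q]; clear q
    intro H hH
    rcases IsSubnormal.iff_eq_top_or_exists.1 (h H) with h1 | ⟨K, hHK, -, hn⟩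
    · exact absurd h1 hH.ne
    · exact lt_of_lt_of_le hHK ((normal_subgroupOf_iff_le_normalizer hHK.le).1 hn)

/-- S0031 -/
theorem fpf_invariant_sylow [Finite G] (φ : G ≃* G)
    (hφ : MonoidHom.FixedPointFree (φ : G →* G)) (p : ℕ) [Fact p.Prime] :
    ∃ P : Sylow p G, (P : Subgroup G).map (φ : G →* G) = P := by
  obtain ⟨P⟩ : Nonempty (Sylow p G) := inferInstance
  let φ' : MulAut G := φ
  obtain ⟨g, hg⟩ := MulAction.exists_smul_eq G (φ' • P) P
  obtain ⟨z, hz⟩ := hφ.commutatorMap_surjective g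
  rw [MonoidHom.commutatorMap_apply] at hz
  have hy' : φ z⁻¹ * g⁻¹ = z⁻¹ := by
    rw [← hz]; simp [div_eq_mul_inv]
  refine ⟨z⁻¹ • P, ?_⟩
  have h1 : (φ' • P : Sylow p G) = g⁻¹ • P := by
    rw [eq_inv_smul_iff]; exact hg
  have h2 : ((P : Subgroup G).map (φ : G →* G)) = MulAut.conj g⁻¹ • (P : Subgroup G) :=
    congrArg (fun S : Sylow p G => (S : Subgroup G)) h1
  rw [Sylow.coe_subgroup_smul, map_conj_smul, h2, ← conj_mul_smul]
  congr 2

end Cfsg.H1
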