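import Mathlib
import Cfsg.Agent.H1.Hall
import Cfsg.Agent.H1.Basic

set_option autoImplicit false

namespace Cfsg.H1

open Subgroup
open scoped Pointwise

variable {G : Type*} [Group G]

theorem mul_eq_of_coprime_relIndex [Finite G] {A B T : Subgroup G} (hA : A ≤ T) (hB : B ≤ T)
    (h : (A.relIndex T).Coprime (B.relIndex T)) : (A : Set G) * (B : Set G) = T := by
  ext t
  constructor
  · rintro ⟨a, ha, b, hb, rfl⟩
    exact T.mul_mem (hA ha) (hB hb)
  · intro ht
    obtain ⟨x, hx, y, hy, hxy⟩ := exists_mul_of_coprime_index (A.subgroupOf T) (B.subgroupOf T) h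
      ⟨t, ht⟩
    exact ⟨x, hx, y, hy, (congrArg Subtype.val hxy).symm⟩

/-- Hall `p`-complements exist in solvable groups. -/
theorem exists_hall_p_complement [Finite G] [Group.IsSolvable G] (p : ℕ) (hp : p.Prime) :
    ∃ H : Subgroup G, H.index = p ^ (Nat.card G).factorization p := by
  have hne : Nat.card G ≠ 0 := Nat.card_pos.ne'
  obtain ⟨H, hH⟩ := hall_exists_aux (Nat.card G) G le_rfl
    (Nat.card G / p ^ (Nat.card G).factorization p) (p ^ (Nat.card G).factorization p)
    (by rw [mul_comm]; exact (Nat.ordProj_mul_ordCompl_eq_self _ _).symm)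
    ((Nat.coprime_ordCompl hp hne).symm.pow_right _)
  refine ⟨H, ?_⟩
  have h1 := H.card_mul_index
  rw [hH] at h1
  have h2 := Nat.ordProj_mul_ordCompl_eq_self (Nat.card G) p
  rw [mul_comm] at h2
  have hpos : 0 < Nat.card G / p ^ (Nat.card G).factorization p := by
    rcases Nat.eq_zero_or_pos (Nat.card G / p ^ (Nat.card G).factorization p) with h | h
    · rw [h, zero_mul] at h2; exact absurd h2.symm hne
    · exact h
  exact Nat.eq_of_mul_eq_mul_left hpos (h1.trans h2.symm)

theorem index_finset_inf [Finite G] (v : ℕ → ℕ) (H : ℕ → Subgroup G)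
    (hH : ∀ q : ℕ, q.Prime → (H q).index = q ^ v q) (s : Finset ℕ) (hs : ∀ q ∈ s, q.Prime) :
    (s.inf H).index = ∏ q ∈ s, q ^ v q := by
  induction s using Finset.induction_on with
  | empty => simp
  | insert a s ha ih =>
    have hs' : ∀ q ∈ s, q.Prime := fun q hq => hs q (Finset.mem_insert_of_mem hq)
    have hap : a.Prime := hs a (Finset.mem_insert_self a s)
    rw [Finset.inf_insert, Finset.prod_insert ha, ← ih hs', ← hH a hap]
    apply index_inf_of_coprime
    rw [hH a hap, ih hs']
    apply Nat.Coprime.prod_right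
    intro q hq
    exact Nat.coprime_pow_primes _ _ hap (hs' q hq) (fun h => ha (h ▸ hq))

theorem pow_mul_prod_erase (v : ℕ → ℕ) (s : Finset ℕ) (q : ℕ) (h : q ∉ s → v q = 0) :
    q ^ v q * ∏ r ∈ s.erase q, r ^ v r = ∏ r ∈ s, r ^ v r := by
  by_cases hq : q ∈ s
  · exact Finset.mul_prod_erase s (fun r => r ^ v r) hq
  · rw [h hq, pow_zero, one_mul, Finset.erase_eq_of_notMem hq]

/-- S0020: Sylow systems. -/
theorem exists_sylow_system [Finite G] [Group.IsSolvable G] :
    ∃ S : (p : Nat.Primes) → Sylow (p : ℕ) G,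
      ∀ p q : Nat.Primes, (S p : Set G) * (S q : Set G) = (S q : Set G) * (S p : Set G) := by
  classical
  have hne : Nat.card G ≠ 0 := Nat.card_pos.ne'
  let v : ℕ → ℕ := fun q => (Nat.card G).factorization q
  have hex : ∀ q : ℕ, ∃ H : Subgroup G, q.Prime → H.index = q ^ v q := by
    intro q
    by_cases hq : q.Prime
    · obtain ⟨H, hH⟩ := exists_hall_p_complement (G := G) q hq
      exact ⟨H, fun _ => hH⟩
    · exact ⟨⊤, fun h => absurd h hq⟩
  choose H hH using hex
  let π := (Nat.card G).primeFactors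
  have hπ : ∀ q ∈ π, q.Prime := fun q hq => Nat.prime_of_mem_primeFactors hq
  have hv : ∀ q, q ∉ π → v q = 0 := by
    intro q hq
    have hq' : q ∉ (Nat.card G).factorization.support := by
      rw [Nat.support_factorization]; exact hq
    exact Finsupp.notMem_support_iff.1 hq'
  have hprod : ∏ r ∈ π, r ^ v r = Nat.card G := Nat.prod_factorization_pow_eq_self hne
  have hidx : ∀ s : Finset ℕ, s ⊆ π → (s.inf H).index = ∏ q ∈ s, q ^ v q :=
    fun s hs => index_finset_inf v H hH s (fun q hq => hπ q (hs hq))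
  have hcard : ∀ p : ℕ, Nat.card ((π.erase p).inf H : Subgroup G) = p ^ v p := by
    intro p
    have h1 := ((π.erase p).inf H).card_mul_index
    rw [hidx _ (Finset.erase_subset _ _), ← hprod, ← pow_mul_prod_erase v π p (hv p)] at h1
    have hpos : 0 < ∏ r ∈ π.erase p, r ^ v r :=
      Finset.prod_pos (fun r hr => pow_pos (hπ r (Finset.mem_of_mem_erase hr)).pos _)
    exact Nat.eq_of_mul_eq_mul_right hpos h1
  let S : (p : Nat.Primes) → Sylow (p : ℕ) G := fun p =>
    haveI : Fact (p : ℕ).Prime := ⟨p.2⟩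
    Sylow.ofCard ((π.erase p).inf H) (hcard p)
  have hS : ∀ p : Nat.Primes, (S p : Subgroup G) = (π.erase p).inf H := fun p => rfl
  have key : ∀ p q : Nat.Primes, p ≠ q →
      (S p : Set G) * (S q : Set G) = (((π.erase p).erase q).inf H : Subgroup G) := by
    intro p q hpq
    have hpq' : (p : ℕ) ≠ q := fun h => hpq (Subtype.ext h)
    have hsub : ((π.erase p).erase q) ⊆ π :=
      (Finset.erase_subset _ _).trans (Finset.erase_subset _ _)
    have hpos : 0 < (((π.erase p).erase q).inf H).index :=
      Nat.pos_of_ne_zero index_ne_zero_of_finite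
    have hAle : (π.erase p).inf H ≤ ((π.erase p).erase q).inf H :=
      Finset.inf_mono (Finset.erase_subset _ _)
    have hBle : (π.erase q).inf H ≤ ((π.erase p).erase q).inf H := by
      rw [Finset.erase_right_comm]
      exact Finset.inf_mono (Finset.erase_subset _ _)
    have hA : ((π.erase p).inf H).relIndex (((π.erase p).erase q).inf H) = (q : ℕ) ^ v q := by
      have h1 := relIndex_mul_index hAle
      rw [hidx _ (Finset.erase_subset _ _), hidx _ hsub,
        ← pow_mul_prod_erase v (π.erase p) q (fun h => hv q (fun h2 =>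
          h (Finset.mem_erase.2 ⟨hpq'.symm, h2⟩)))] at h1
      rw [hidx _ hsub] at hpos
      exact Nat.eq_of_mul_eq_mul_right hpos h1
    have hB : ((π.erase q).inf H).relIndex (((π.erase p).erase q).inf H) = (p : ℕ) ^ v p := by
      have h1 := relIndex_mul_index hBle
      rw [hidx _ (Finset.erase_subset _ _), hidx _ hsub,
        ← pow_mul_prod_erase v (π.erase q) p (fun h => hv p (fun h2 =>
          h (Finset.mem_erase.2 ⟨hpq', h2⟩))), Finset.erase_right_comm (a := (q : ℕ))] at h1
      rw [hidx _ hsub] at hpos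
      exact Nat.eq_of_mul_eq_mul_right hpos h1
    have := mul_eq_of_coprime_relIndex hAle hBle
      (by rw [hA, hB]; exact Nat.coprime_pow_primes _ _ q.2 p.2 hpq'.symm)
    exact this
  refine ⟨S, ?_⟩
  intro p q
  by_cases hpq : p = q
  · rw [hpq]
  · rw [key p q hpq, key q p (Ne.symm hpq), Finset.erase_right_comm]

end Cfsg.H1
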