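import Mathlib
import Cfsg.Prelude.Def_Transfer
import Cfsg.Agent.H1.Transfer3

set_option autoImplicit false

namespace Cfsg.H1

open Subgroup
open scoped Pointwise commutatorElement

variable {G : Type*} [Group G]

/-- an automorphism of prime order `q` of a finite group: fixed point congruence. -/
theorem aut_prime_order_fixed {T : Type*} [Group T] [Finite T] (α : MulAut T) (q : ℕ)
    [Fact q.Prime] (hα : orderOf α = q) :
    ∃ F : Subgroup T, F ≠ ⊤ ∧ Nat.card T ≡ Nat.card F [MOD q] := by
  have hA : IsPGroup q (zpowers α) := by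
    apply IsPGroup.of_card (n := 1)
    rw [Nat.card_zpowers, hα, pow_one]
  let F : Subgroup T :=
    { carrier := {x | α x = x}
      mul_mem' := by
        intro a b ha hb
        simp only [Set.mem_ofPred_eq] at *
        rw [map_mul, ha, hb]
      one_mem' := map_one α
      inv_mem' := by
        intro a ha
        simp only [Set.mem_ofPred_eq] at *
        rw [map_inv, ha] }
  have hF : (MulAction.fixedPoints (zpowers α) T) = (F : Set T) := by
    ext x
    constructor
    · intro hx
      exact hx ⟨α, mem_zpowers α⟩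
    · intro hx
      rintro ⟨β, hβ⟩
      obtain ⟨k, rfl⟩ := mem_zpowers_iff.1 hβ
      change (α ^ k) • x = x
      have h1 : α ∈ MulAction.stabilizer (MulAut T) x := hx
      exact zpow_mem h1 k
  refine ⟨F, ?_, ?_⟩
  · intro h
    have : α = 1 := by
      ext x
      have : x ∈ F := h ▸ mem_top x
      exact this
    rw [this, orderOf_one] at hα
    exact (Fact.out : q.Prime).one_lt.ne hα
  · have := hA.card_modEq_card_fixedPoints T
    rw [hF] at this
    exact this

theorem exists_prime_aut [Finite G] {p : ℕ} [Fact p.Prime] (P : Sylow p G)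
    (hP : IsMulCommutative P) (h : ¬ normalizer (P : Set G) ≤ centralizer (P : Set G)) :
    ∃ q : ℕ, q.Prime ∧ q ∣ (P : Subgroup G).index ∧
      ∃ F : Subgroup P, F ≠ ⊤ ∧ Nat.card P ≡ Nat.card F [MOD q] := by
  have h1 : Nat.card (P : Subgroup G).normalizerMonoidHom.range =
      (centralizer (P : Set G)).relIndex (normalizer (P : Set G)) := by
    rw [← index_ker, normalizerMonoidHom_ker]; rfl
  have h2 : (centralizer (P : Set G)).relIndex (normalizer (P : Set G)) ∣ (P : Subgroup G).index :=
    (relIndex_dvd_of_le_left _ (le_centralizer (P : Subgroup G))).trans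
      (relIndex_dvd_index_of_le le_normalizer)
  have h3 : (centralizer (P : Set G)).relIndex (normalizer (P : Set G)) ≠ 1 :=
    fun h' => h (relIndex_eq_one.1 h')
  obtain ⟨q, hq, hdvd⟩ := Nat.exists_prime_and_dvd h3
  haveI := Fact.mk hq
  rw [← h1] at hdvd
  obtain ⟨⟨α, hα'⟩, hα⟩ := exists_prime_orderOf_dvd_card' q hdvd
  rw [Subgroup.orderOf_mk] at hα
  exact ⟨q, hq, (h1 ▸ hdvd).trans h2, aut_prime_order_fixed α q hα⟩

/-- S0084 -/
theorem klein_four_sylow_complement [Finite G] (T : Sylow 2 G) (hT : IsKleinFour T)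
    (h3 : ¬ 3 ∣ Nat.card G) : Cfsg.HasNormalPComplement 2 G := by
  haveI : Fact (Nat.Prime 2) := ⟨Nat.prime_two⟩
  apply hasNormalPComplement_of_burnside T
  by_contra hcon
  have hc : IsMulCommutative T := ⟨⟨fun a b => mul_comm_of_exponent_two hT.exponent_two a b⟩⟩
  obtain ⟨q, hq, hqi, F, hF, hmod⟩ := exists_prime_aut T hc hcon
  have h4 : Nat.card T = 4 := hT.card_four
  have hq2 : q ≠ 2 := by
    rintro rfl
    exact T.not_dvd_index hqi
  have hq3 : q ≠ 3 := by
    rintro rfl
    exact h3 (hqi.trans (index_dvd_card _))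
  have hFd : Nat.card F ∣ 4 := h4 ▸ card_subgroup_dvd_card F
  have hFne : Nat.card F ≠ 4 := by
    intro h
    exact hF (eq_top_of_card_eq F (h.trans h4.symm))
  rw [h4] at hmod
  have hFle : Nat.card F ≤ 4 := Nat.le_of_dvd (by norm_num) hFd
  have hdiv : q ∣ 4 - Nat.card F := (Nat.modEq_iff_dvd' hFle).1 hmod.symm
  have hq5 : 5 ≤ q := by
    have := hq.two_le
    by_contra hlt
    have : q = 4 := by omega
    subst this
    norm_num at hq
  have hpos : 0 < 4 - Nat.card F := by omega
  have := Nat.le_of_dvd hpos hdiv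
  omega

/-- S0085 -/
theorem elemAb8_sylow_complement [Finite G] (T : Sylow 2 G) (h8 : Nat.card T = 8)
    (he : ∀ x : T, x * x = 1) (h3 : ¬ 3 ∣ Nat.card G) (h7 : ¬ 7 ∣ Nat.card G) :
    Cfsg.HasNormalPComplement 2 G := by
  haveI : Fact (Nat.Prime 2) := ⟨Nat.prime_two⟩
  apply hasNormalPComplement_of_burnside T
  by_contra hcon
  have hc : IsMulCommutative T := ⟨⟨fun a b => by
    have h1 := he (a * b)
    have h2 := he a
    have h3 := he b
    calc a * b = (b * b) * (a * b) * (a * a) := by rw [h2, h3]; simp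
      _ = b * (b * a) * (b * a) * a := by group
      _ = b * ((b * a) * (b * a)) * a := by group
      _ = b * a := by rw [he (b * a)]; simp⟩⟩
  obtain ⟨q, hq, hqi, F, hF, hmod⟩ := exists_prime_aut T hc hcon
  have hq2 : q ≠ 2 := by
    rintro rfl
    exact T.not_dvd_index hqi
  have hq3 : q ≠ 3 := by
    rintro rfl
    exact h3 (hqi.trans (index_dvd_card _))
  have hq7 : q ≠ 7 := by
    rintro rfl
    exact h7 (hqi.trans (index_dvd_card _))
  have hFd : Nat.card F ∣ 8 := h8 ▸ card_subgroup_dvd_card F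
  have hFne : Nat.card F ≠ 8 := by
    intro h
    exact hF (eq_top_of_card_eq F (h.trans h8.symm))
  rw [h8] at hmod
  have hFle : Nat.card F ≤ 8 := Nat.le_of_dvd (by norm_num) hFd
  have hdiv : q ∣ 8 - Nat.card F := (Nat.modEq_iff_dvd' hFle).1 hmod.symm
  have hcases : Nat.card F = 1 ∨ Nat.card F = 2 ∨ Nat.card F = 4 := by
    have : Nat.card F ∈ Nat.divisors 8 := Nat.mem_divisors.2 ⟨hFd, by norm_num⟩
    have h8d : Nat.divisors 8 = {1, 2, 4, 8} := by decide
    rw [h8d] at this
    simp only [Finset.mem_insert, Finset.mem_singleton] at this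
    tauto
  rcases hcases with h | h | h <;> rw [h] at hdiv
  · have : q = 7 := (Nat.prime_dvd_prime_iff_eq hq (by norm_num)).1 hdiv
    exact hq7 this
  · have h6 : (8 - 2 : ℕ) = 2 * 3 := by norm_num
    rw [h6] at hdiv
    rcases (Nat.Prime.dvd_mul hq).1 hdiv with h' | h'
    · exact hq2 ((Nat.prime_dvd_prime_iff_eq hq (by norm_num)).1 h')
    · exact hq3 ((Nat.prime_dvd_prime_iff_eq hq (by norm_num)).1 h')
  · have h6 : (8 - 4 : ℕ) = 2 * 2 := by norm_num
    rw [h6] at hdiv
    rcases (Nat.Prime.dvd_mul hq).1 hdiv with h' | h'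
    · exact hq2 ((Nat.prime_dvd_prime_iff_eq hq (by norm_num)).1 h')
    · exact hq2 ((Nat.prime_dvd_prime_iff_eq hq (by norm_num)).1 h')

end Cfsg.H1
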