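import Mathlib
import Cfsg.Prelude.Def_Transfer
import Cfsg.Agent.H1.Transfer4

set_option autoImplicit false

namespace Cfsg.H1

open Subgroup
open scoped Pointwise commutatorElement

variable {G : Type*} [Group G]

theorem isMulCommutative_of_card_pow_le_two {T : Type*} [Group T] [Finite T] {p k : ℕ}
    [Fact p.Prime] (hT : Nat.card T = p ^ k) (hk : k ≤ 2) : IsMulCommutative T := by
  interval_cases k
  · rw [pow_zero, Nat.card_eq_one_iff_unique] at hT
    haveI := hT.1
    exact ⟨⟨fun a b => Subsingleton.elim _ _⟩⟩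
  · rw [pow_one] at hT
    haveI := isCyclic_of_prime_card hT
    exact ⟨⟨fun a b => IsCyclic.commGroup.mul_comm a b⟩⟩
  · exact IsPGroup.isMulCommutative_of_card_eq_prime_sq hT

/-- S0073 -/
theorem simple_minFac_cube_or_twelve [Finite G] [IsSimpleGroup G]
    (hG : ∃ x y : G, x * y ≠ y * x) :
    (Nat.card G).minFac ^ 3 ∣ Nat.card G ∨ 12 ∣ Nat.card G := by
  have hcard : Nat.card G ≠ 1 := by
    intro h
    rw [Nat.card_eq_one_iff_unique] at h
    obtain ⟨x, y, hxy⟩ := hG
    exact hxy (h.1.elim _ _)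
  set p := (Nat.card G).minFac with hp_def
  have hp : p.Prime := Nat.minFac_prime hcard
  haveI := Fact.mk hp
  have hpd : p ∣ Nat.card G := Nat.minFac_dvd _
  obtain ⟨P⟩ : Nonempty (Sylow p G) := inferInstance
  obtain ⟨k, hk⟩ := IsPGroup.iff_card.1 P.2
  have hPd : p ^ k ∣ Nat.card G := hk ▸ card_subgroup_dvd_card (P : Subgroup G)
  by_cases hk3 : 3 ≤ k
  · exact Or.inl ((pow_dvd_pow p hk3).trans hPd)
  have hk2 : k ≤ 2 := by omega
  have hc : IsMulCommutative P := isMulCommutative_of_card_pow_le_two hk hk2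
  by_cases hNC : normalizer (P : Set G) ≤ centralizer (P : Set G)
  · exfalso
    have hcomp := MonoidHom.ker_transferSylow_isComplement' P hNC
    rcases (inferInstance : (MonoidHom.transferSylow P hNC).ker.Normal).eq_bot_or_eq_top with h | h
    · have h1 := hcomp.sup_eq_top
      rw [h, bot_sup_eq] at h1
      obtain ⟨x, y, hxy⟩ := hG
      apply hxy
      have hx : x ∈ (P : Subgroup G) := h1 ▸ mem_top x
      have hy : y ∈ (P : Subgroup G) := h1 ▸ mem_top y
      exact congrArg Subtype.val (mul_comm' (⟨x, hx⟩ : P) ⟨y, hy⟩)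
    · have h1 := hcomp.disjoint.eq_bot
      rw [h, top_inf_eq] at h1
      exact P.ne_bot_of_dvd_card hpd h1
  · obtain ⟨q, hq, hqi, F, hF, hmod⟩ := exists_prime_aut P hc hNC
    have hqG : q ∣ Nat.card G := hqi.trans (index_dvd_card _)
    have hpq : p ≤ q := Nat.minFac_le_of_dvd hq.two_le hqG
    have hne : q ≠ p := by
      rintro rfl
      exact P.not_dvd_index hqi
    have hlt : p < q := lt_of_le_of_ne hpq (Ne.symm hne)
    have hFd : Nat.card F ∣ p ^ k := hk ▸ card_subgroup_dvd_card F
    obtain ⟨j, hjk, hj⟩ := (Nat.dvd_prime_pow hp).1 hFd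
    have hjne : j ≠ k := by
      rintro rfl
      exact hF (eq_top_of_card_eq F (hj.trans hk.symm))
    have hk' : Nat.card P = p ^ k := hk
    rw [hk', hj] at hmod
    have hle : p ^ j ≤ p ^ k := Nat.pow_le_pow_right hp.pos hjk
    have hdiv : q ∣ p ^ k - p ^ j := (Nat.modEq_iff_dvd' hle).1 hmod.symm
    have hp2 := hp.two_le
    have hnot1 : ¬ q ∣ p - 1 := by
      intro h
      have := Nat.le_of_dvd (by omega) h
      omega
    have hnotp : ¬ q ∣ p := by
      intro h
      exact hne ((Nat.prime_dvd_prime_iff_eq hq hp).1 h)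
    have hcases : (k = 1 ∧ j = 0) ∨ (k = 2 ∧ j = 0) ∨ (k = 2 ∧ j = 1) := by omega
    rcases hcases with ⟨rfl, rfl⟩ | ⟨rfl, rfl⟩ | ⟨rfl, rfl⟩
    · simp only [pow_one, pow_zero] at hdiv
      exact absurd hdiv hnot1
    · have h1 : p ^ 2 - p ^ 0 = (p - 1) * (p + 1) := by
        obtain ⟨m, hm⟩ : ∃ m, p = m + 1 := ⟨p - 1, by omega⟩
        rw [hm]
        simp only [pow_zero, Nat.add_sub_cancel]
        have : (m + 1) ^ 2 = m * (m + 1 + 1) + 1 := by ring
        omega
      rw [h1] at hdiv
      rcases (Nat.Prime.dvd_mul hq).1 hdiv with h' | h'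
      · exact absurd h' hnot1
      · have h2 := Nat.le_of_dvd (by omega) h'
        have hq1 : q = p + 1 := by omega
        have hp2' : p = 2 := by
          rcases hp.eq_two_or_odd' with h | ⟨a, ha⟩
          · exact h
          · rcases hq.eq_two_or_odd' with h | ⟨b, hb⟩ <;> omega
        right
        have h3 : q = 3 := by omega
        rw [hp2'] at hPd
        rw [h3] at hqG
        have : (12 : ℕ) = 2 ^ 2 * 3 := by norm_num
        rw [this]
        exact Nat.Coprime.mul_dvd_of_dvd_of_dvd (by norm_num) hPd hqG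
    · have h1 : p ^ 2 - p ^ 1 = p * (p - 1) := by
        rw [pow_one, sq, Nat.mul_sub_one]
      rw [h1] at hdiv
      rcases (Nat.Prime.dvd_mul hq).1 hdiv with h' | h'
      · exact absurd h' hnotp
      · exact absurd h' hnot1

end Cfsg.H1
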